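import Cfsg.Agent.TwoF.XL.Un2.Five
import Cfsg.Agent.H380.RC.Ind

/-!
# TwoF XL-Un2: `Row 3 (PSU n F 2)` for `5 ≤ n ≤ 8` (helper35)

The pull-back `Pb φ` of `Y → Aut S` and `GU → Aut S` satisfies `Cov`.
-/

set_option autoImplicit false
set_option linter.unusedSectionVars false

namespace Cfsg.Agent.TwoF.XL.Un2

open Module Matrix Cfsg.Agent.LieClassical.HermBasic Cfsg.Agent.LieClassical.HermSiegel Gen
  Cfsg.Agent.ClassicalGeometry Cfsg.Agent.ClassicalGeometry.PSUAutCount Cfsg.Agent.H380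
open Cfsg.Agent.ClassicalGeometry.PSUAutBasic (pr pr_surjective)
open scoped commutatorElement

variable {F : Type} [Field F] [Fintype F] {n : ℕ}

/-- `GU → Aut PSU` -/
noncomputable def th (n : ℕ) (F : Type) [Field F] : GU n F 2 →* MulAut (PSU n F 2) :=
  MonoidHom.mk' (fun A => toAut A 1) fun A B => by
    rw [RC.toAut_mul, mul_one, show RC.gmap 1 B = B from gm_inj rfl]

/-- the matrix of an element of `GU` -/
def gmH (n : ℕ) (F : Type) [Field F] : GU n F 2 →* Mt n F := ⟨⟨gm, gm_one⟩, gm_mul⟩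

theorem th_conj {A : GU n F 2} {s : SU n F 2} (h : gm A = mat s) : th n F A = MulAut.conj (pr n F 2 s) :=
  RC.Ind.inj (f := act s) ⟨A, 1, funext fun v => by rw [act_def, ← h]; rfl, rfl⟩ (RC.ind_act s)

theorem sc_of_th (hF : Fintype.card F = 2 ^ 2) (hn : 3 ≤ n) {A : GU n F 2} (h : th n F A = 1) :
    ∃ c : F, c ^ 3 = 1 ∧ gm A = c • (1 : Mt n F) := by
  obtain ⟨-, c, hc, e⟩ := eq_of_toAut_eq hF hn (A := 1) (A' := A) (ρ := 1) (ρ' := 1)
    (((th n F).map_one).trans h.symm)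
  exact ⟨c, by linear_combination hc, e⟩

theorem aut_sq (hF : Fintype.card F = 2 ^ 2) (σ : F ≃+* F) : σ * σ = 1 := RingEquiv.ext fun x => by
  show σ (σ x) = x
  by_cases h0 : x = 0
  · rw [h0, map_zero, map_zero]
  by_cases h1 : x = 1
  · rw [h1, map_one, map_one]
  have h := F4.of_ne hF h0 h1
  rcases h.cases ((map_ne_zero σ).2 h0) with e | e | e
  · exact (h1 (σ.injective (e.trans (map_one σ).symm))).elim
  · rw [e, e]
  · rw [e, map_pow, e]
    linear_combination x * h.three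

theorem exists_th (hF : Fintype.card F = 2 ^ 2) (hn : 4 ≤ n) {α : MulAut (PSU n F 2)} (h : α ^ 3 = 1) :
    ∃ A, th n F A = α := by
  obtain ⟨A, σ, e⟩ := PSUAutMain.exists_toAut hF (by omega) (by omega) (α * α)
  refine ⟨A * RC.gmap σ A, ?_⟩
  show toAut _ 1 = α
  rw [← aut_sq hF σ, ← RC.toAut_mul, ← e, ← mul_assoc, ← _root_.pow_three', h, one_mul]

theorem two_ne_zmod : (2 : ZMod 3) ≠ 0 := by decide

variable {Y : Type} [Group Y]

/-- the pull-back -/
noncomputable def Pb (φ : Y →* MulAut (PSU n F 2)) : Subgroup (Y × GU n F 2) :=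
  (φ.comp (MonoidHom.fst _ _)).eqLocus ((th n F).comp (MonoidHom.snd _ _))

/-- first projection -/
noncomputable def p1 (φ : Y →* MulAut (PSU n F 2)) : Pb φ →* Y := (MonoidHom.fst _ _).comp (Pb φ).subtype

/-- second projection -/
noncomputable def p2 (φ : Y →* MulAut (PSU n F 2)) : Pb φ →* Mt n F :=
  (gmH n F).comp ((MonoidHom.snd _ _).comp (Pb φ).subtype)

variable [Finite Y] {V : Type} [AddCommGroup V] [Module (ZMod 3) V] [Finite V] {K : Subgroup Y}
  {ρ : Representation (ZMod 3) Y V} {π : K →* PSU n F 2} {φ : Y →* MulAut (PSU n F 2)}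

theorem pb_eq (w : Pb φ) : φ w.1.1 = th n F w.1.2 := w.2

theorem pb_ext {w w' : Pb φ} (h1 : p1 φ w = p1 φ w') (h2 : p2 φ w = p2 φ w') : w = w' :=
  Subtype.ext (Prod.ext h1 (gm_inj h2))

variable (hF : Fintype.card F = 2 ^ 2) (hn : 4 ≤ n)
include hF hn

theorem sc_of_p1 {w : Pb φ} (h : p1 φ w = 1) : ∃ c : F, c ^ 3 = 1 ∧ p2 φ w = c • (1 : Mt n F) :=
  sc_of_th hF (by omega) (A := w.1.2) (by rw [← pb_eq, show w.1.1 = 1 from h, map_one])

theorem exists_p1 {a : Y} (ha : a ^ 3 = 1) : ∃ w : Pb φ, p1 φ w = a := by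
  obtain ⟨A, hA⟩ := exists_th hF hn (α := φ a) (by rw [← map_pow, ha, map_one])
  exact ⟨⟨(a, A), hA.symm⟩, rfl⟩

omit hn in
theorem exists_sc {c : F} (hc : c ≠ 0) : ∃ w : Pb φ, p1 φ w = 1 ∧ p2 φ w = c • (1 : Mt n F) := by
  have h : c * c ^ 2 = 1 := by linear_combination pow_three hF hc
  refine ⟨⟨(1, sc n ⟨c, h⟩ * 1), ?_⟩, rfl, gm_sc_mul _ _⟩
  exact (map_one φ).trans ((toAut_sc_mul _ 1 1).trans (th n F).map_one).symm

variable (H : Sit 3 K ρ π φ)
include H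

omit hF hn in
theorem mem_K {w : Pb φ} (h : (p2 φ w).det = 1) : p1 φ w ∈ K :=
  H.toFrm.mem_inn_iff.1 ⟨pr n F 2 (mkSU _ h (herm_gm w.1.2)), (th_conj rfl).symm.trans (pb_eq w).symm⟩

omit hF hn in
theorem mem_cent {z : Pb φ} (h : p2 φ z = 1) : p1 φ z ∈ Subgroup.centralizer (K : Set Y) :=
  H.toFrm.φ_eq_one_iff.1 ((pb_eq z).trans (by rw [show z.1.2 = 1 from gm_inj h, map_one]))

omit hn in
theorem cov_pb : Cov (p2 φ) where
  card := hF
  uni w := herm_gm w.1.2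
  lift M hM hd := by
    obtain ⟨g, hg, e⟩ := HermOrtho.exists_GU_of_isometry hF hM
    obtain ⟨x, hx⟩ := H.surj (pr n F 2 (mkSU M hd hM))
    exact ⟨⟨(x, ⟨g, hg⟩), (H.toFrm.φ_coe x).trans (by rw [hx]; exact (th_conj (A := ⟨g, hg⟩) (s := mkSU M hd hM) e).symm)⟩, e⟩
  cent z w hz hw := pb_ext (by rw [map_mul, map_mul]; exact (mem_cent H hz _ (mem_K H hw)).symm)
    (by rw [map_mul, map_mul, hz, one_mul, mul_one])
  cop z hz h3 := pb_ext (H.toStp.eq_one_of_mem_centralizer (n := 1) (by rw [pow_one, ← map_pow, h3, map_one])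
    (mem_cent H hz)) (by rw [hz, map_one])

theorem fth_pb : Fth (p2 φ) (ρ.comp (p1 φ) : Representation (ZMod 3) (Pb φ) V) := fun w hw =>
  (sc_of_p1 hF hn (H.faithful (hw.trans (map_one ρ).symm))).imp fun _ h => h.2

omit H in
theorem ofd_pb {A : Subgroup Y} (hA : Off 3 ρ A) :
    ∃ m, Ofd (p2 φ) (ρ.comp (p1 φ) : Representation (ZMod 3) (Pb φ) V) (A.comap (p1 φ)) m := by
  obtain ⟨m, h0, hc, hcod⟩ := hA.exists_card
  have hmap : (A.comap (p1 φ)).map (p1 φ) = A := Subgroup.map_comap_eq_self fun a ha => exists_p1 hF hn (hA.1.2 a ha)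
  have h3 : ∀ w ∈ A.comap (p1 φ), p1 φ (w ^ 3) = 1 := fun w hw => by rw [map_pow]; exact hA.1.2 _ hw
  refine ⟨m, fun w => ⟨2, Subtype.ext ?_⟩, fun w hw => (sc_of_p1 hF hn (h3 w hw)).imp fun _ h => h.2,
    fun a ha b hb => (sc_of_p1 hF hn ?_).imp fun _ h => h.2, h0, ?_, by rw [cod_comp, hmap]; exact hcod⟩
  · obtain ⟨c, hc, e⟩ := sc_of_p1 hF hn (h3 w w.2)
    show (w : Pb φ) ^ 3 ^ 2 = 1
    rw [pow_two, pow_mul]
    exact pb_ext (by rw [map_pow, h3 w w.2, one_pow, map_one]) (by rw [map_pow, e, smul_pow, hc, one_pow, one_smul, map_one])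
  · rw [map_commutatorElement, commutatorElement_eq_one_iff_mul_comm]
    exact elemAb_comm hA.1 ha hb
  · obtain ⟨ω, h⟩ := exists_F4 hF
    obtain ⟨s, s1, s2⟩ := exists_sc (φ := φ) hF h.ne_zero
    have hs : s ∈ A.comap (p1 φ) := by rw [Subgroup.mem_comap, s1]; exact one_mem _
    set f := (p1 φ).comp (A.comap (p1 φ)).subtype
    have e1 : f.range = A := by rw [MonoidHom.range_comp, Subgroup.range_subtype, hmap]
    have e2 : orderOf (⟨⟨s, hs⟩, s1⟩ : f.ker) = 3 := orderOf_eq_prime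
      (Subtype.ext (Subtype.ext (pb_ext (by show p1 φ (s ^ 3) = p1 φ 1; rw [map_pow, s1, one_pow, map_one])
        (by show p2 φ (s ^ 3) = p2 φ 1; rw [map_pow, s2, smul_pow, h.three, one_pow, one_smul, map_one]))))
      fun e => h.ne_one (by
        have := congrFun (congrFun s2 ⟨0, by omega⟩) ⟨0, by omega⟩
        rw [show s = 1 from congrArg (fun x : f.ker => (x.1 : Pb φ)) e, map_one, smul_one_apply, one_apply_eq] at this
        exact this.symm)
    rw [← f.ker.card_mul_index, Subgroup.index_ker, e1, hc, pow_succ']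
    exact Nat.mul_le_mul_right _ (Nat.le_of_dvd Nat.card_pos (e2 ▸ orderOf_dvd_natCard _))

omit hn H in
theorem noOff_big (hn : n = 6 ∨ n = 7 ∨ n = 8) : NoOff 3 (PSU n F 2) :=
  noOff_of_sit fun Y _ _ V _ _ _ K ρ π φ H A hA => by
    obtain ⟨m, O⟩ := ofd_pb (φ := φ) hF (by omega) hA
    have C := cov_pb hF H
    let L := AlgebraicClosure (ZMod 3)
    have h2 : (2 : L) ≠ 0 := by
      rw [show (2 : L) = algebraMap (ZMod 3) L 2 from (map_ofNat _ 2).symm, map_ne_zero]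
      exact two_ne_zmod
    have hf : Fth (p2 φ) (bc L (ρ.comp (p1 φ) : Representation (ZMod 3) (Pb φ) V)) := fun w hw =>
      fth_pb hF (by omega) H w (by_contra fun e => bc_ne_one L e hw)
    have O' : Ofd (p2 φ) (bc L (ρ.comp (p1 φ) : Representation (ZMod 3) (Pb φ) V)) (A.comap (p1 φ)) m :=
      ⟨O.pg, O.cube, O.comm, O.pos, O.card, by rw [cod_bc]; exact O.cod⟩
    rcases hn with rfl | hn
    · exact C.no_6 h2 hf O'
    · exact C.no_78 h2 hf hn O'

omit hn H in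
theorem row_five : Row 3 (PSU 5 F 2) := by
  refine ⟨row88_of_sit fun Y _ _ V _ _ _ K ρ π φ H A hA => ?_,
    row89_of_sit fun Y _ _ V _ _ _ K ρ π φ H A hA _ _ _ hAK => (hAK fun a ha => ?_).elim⟩
  · obtain ⟨m, O⟩ := ofd_pb (φ := φ) hF (by omega) hA
    have C := cov_pb hF H
    obtain ⟨B, b1, b2, b3⟩ := C.five O
    have hi : ∀ b ∈ B, p1 φ b = 1 → b = 1 := fun b hb e => pb_ext (by rw [e, map_one]) (by
      rw [map_one]
      exact C.eq_one_of_sc 0 (by decide) ((sc_of_p1 hF (by omega) e).imp fun _ h => h.2) (b1 b hb))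
    refine ⟨B.map (p1 φ), ⟨elemAb_map b2.1 _, fun e => b2.2.1 ((Subgroup.eq_bot_iff_forall B).2 fun b hb =>
      hi b hb (Subgroup.mem_bot.1 (e ▸ Subgroup.mem_map_of_mem _ hb))), ?_⟩, (cub_comp _ _).1 b3⟩
    have e : Nat.card B ≤ Nat.card (B.map (p1 φ)) := Nat.card_le_card_of_injective
      (fun b : B => (⟨p1 φ b, Subgroup.mem_map_of_mem _ b.2⟩ : B.map (p1 φ))) fun a b e =>
        Subtype.ext (mul_inv_eq_one.1 (hi _ (mul_mem a.2 (inv_mem b.2)) (by
          rw [map_mul, map_inv, show p1 φ a = p1 φ b from congrArg Subtype.val e, mul_inv_cancel])))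
    rw [← cod_comp]
    exact b2.2.2.trans (Nat.pow_le_pow_left e 2)
  · obtain ⟨w, rfl⟩ := exists_p1 (φ := φ) hF (by omega) (hA.1.2 a ha)
    have C := cov_pb hF H
    obtain ⟨s, s1, s2⟩ := exists_sc (φ := φ) hF ((C.uni w).det_ne hF)
    have := mem_K H (w := s * w) (by
      rw [det_mu_mul, s2, det_smul, det_one, mul_one, Fintype.card_fin]
      linear_combination ((p2 φ w).det ^ 3 + 1) * (C.uni w).det hF)
    rwa [map_mul, s1, one_mul] at this

end Cfsg.Agent.TwoF.XL.Un2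

namespace Cfsg.Agent.TwoF.XL.Un2

/-- **the rows of `U_n(2)`, `p = 3`, `5 ≤ n ≤ 8`** -/
theorem row_Un2 {F : Type} [Field F] [Fintype F] (hF : Fintype.card F = 2 ^ 2) {n : ℕ}
    (h5 : 5 ≤ n) (h8 : n ≤ 8) : Row 3 (PSU n F 2) := by
  obtain rfl | h : n = 5 ∨ n = 6 ∨ n = 7 ∨ n = 8 := by omega
  · exact row_five hF
  · exact (noOff_big hF h).row

end Cfsg.Agent.TwoF.XL.Un2
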