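import Cfsg.Agent.TwoF.XL.Un2.Bnd

/-!
# TwoF XL-Un2: no offenders for `n = 6, 7, 8` (helper35)
-/

set_option autoImplicit false
set_option linter.unusedSectionVars false

namespace Cfsg.Agent.TwoF.XL.Un2

open Module Matrix Cfsg.Agent.LieClassical.HermBasic Cfsg.Agent.LieClassical.HermSiegel Gen
open scoped commutatorElement

variable {F : Type} [Field F] [Fintype F] {n : ℕ} {W : Type} [Group W] [Finite W] {μ : W →* Mt n F}
  {k : Type*} [Field k] {V : Type*} [AddCommGroup V] [Module k V] [FiniteDimensional k V] {ρ : Representation k W V}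

/-- the preimage of an offender of order `3 ^ m` -/
structure Ofd (μ : W →* Mt n F) (ρ : Representation k W V) (P : Subgroup W) (m : ℕ) : Prop where
  pg : IsPGroup 3 P
  cube : ∀ a ∈ P, Sc (μ (a ^ 3))
  comm : ∀ a ∈ P, ∀ b ∈ P, Sc (μ ⁅a, b⁆)
  pos : 1 ≤ m
  card : 3 ^ (m + 1) ≤ Nat.card P
  cod : cod ρ P ≤ 2 * m

theorem mu_swap (a b : W) : μ a * μ b = μ ⁅a, b⁆ * (μ b * μ a) := by
  rw [← map_mul, ← map_mul, ← map_mul, commutatorElement_def]
  congr 1
  group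

theorem smul_one_apply (c : F) (i : Fin n) : (c • (1 : Mt n F)) i i = c := by simp

theorem exists_perm {a b c d : Fin n} (h : a ≠ b) (h' : c ≠ d) : ∃ σ : Equiv.Perm (Fin n), σ a = c ∧ σ b = d :=
  ⟨Equiv.swap (Equiv.swap a c b) d * Equiv.swap a c, by
    rw [Equiv.Perm.mul_apply, Equiv.swap_apply_left, Equiv.swap_apply_of_ne_of_ne _ h']
    intro e
    exact h ((Equiv.swap a c).injective (by rw [← e, Equiv.swap_apply_left])), by
    rw [Equiv.Perm.mul_apply, Equiv.swap_apply_left]⟩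

theorem exists_col {N : Mt n F} (h : N.det ≠ 0) (i : Fin n) : ∃ j, N j i ≠ 0 := by
  by_contra! e
  exact h (det_eq_zero_of_column_eq_zero i e)

theorem diag_rel {N : Mt n F} {d : Fin n → F} {c : F} (h : diagonal d * N = c • (1 : Mt n F) * (N * diagonal d))
    {i j : Fin n} (hj : N j i ≠ 0) : d j = c * d i := by
  have e := congrFun (congrFun h j) i
  rw [diagonal_mul, Matrix.smul_mul, Matrix.one_mul, Matrix.smul_apply, mul_diagonal, smul_eq_mul] at e
  exact mul_right_cancel₀ hj (by linear_combination e)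

theorem pow_inj_three {c : F} (h : F4 c) (s t : Fin 3) (e : c ^ s.1 = c ^ t.1) : s = t := by
  have h1 := h.ne_one
  have h2 := h.sq_ne_one
  have h3 : c ^ 2 ≠ c := fun e => h1 (mul_left_cancel₀ h.ne_zero (by linear_combination e))
  fin_cases s <;> fin_cases t <;> simp_all [eq_comm]

namespace Cov

variable (C : Cov μ)
include C

theorem sc_ne (i0 : Fin n) {a : W} {c : F} (h : μ a = c • (1 : Mt n F)) : c ≠ 0 := fun e => (C.uni a).det_ne C.card (by
  haveI : Nonempty (Fin n) := ⟨i0⟩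
  rw [h, e, zero_smul, det_zero])

theorem eq_one_of_sc (i0 : Fin n) (h3 : Nat.Coprime n 3) {a : W} (h : Sc (μ a)) (hd : (μ a).det = 1) : μ a = 1 := by
  obtain ⟨c, hc⟩ := h
  have h1 := pow_three C.card (C.sc_ne i0 hc)
  rw [hc, det_smul, det_one, mul_one, Fintype.card_fin] at hd
  have := pow_gcd_eq_one.2 ⟨hd, h1⟩
  rw [h3, pow_one] at this
  rw [hc, this, one_smul]

theorem toral (i0 : Fin n) (h3 : Nat.Coprime n 3) {P : Subgroup W} {m : ℕ} (O : Ofd μ ρ P m) :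
    (∀ a ∈ P, ∀ b ∈ P, μ a * μ b = μ b * μ a) ∧ ∀ a ∈ P, μ a ^ 3 = 1 :=
  ⟨fun a ha b hb => by rw [mu_swap, C.eq_one_of_sc i0 h3 (O.comm a ha b hb) (det_mu_comm a b), one_mul],
    fun a ha => by
      rw [← map_pow]
      exact C.eq_one_of_sc i0 h3 (O.cube a ha) (by rw [map_pow, det_pow, (C.uni a).det C.card])⟩

/-- there is no extraspecial group `3^(1+4)` in small dimension -/
theorem nine (i0 : Fin n) {a b c d : W} {s t : F} (hs : s ≠ 1) (ht : t ≠ 1) (ha : μ a ^ 3 = 1) (hc : μ c ^ 3 = 1)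
    (h1 : μ ⁅a, b⁆ = s • (1 : Mt n F)) (h2 : μ ⁅a, c⁆ = 1) (h3 : μ ⁅a, d⁆ = 1) (h4 : μ ⁅c, d⁆ = t • (1 : Mt n F)) :
    9 ≤ n := by
  have hac : μ a * μ c = μ c * μ a := by rw [mu_swap, h2, one_mul]
  obtain ⟨μ', C', hsc, -, hd⟩ := C.exists_frame {a, c}
    (by rintro _ (rfl | rfl) _ (rfl | rfl) <;> first | rfl | exact hac | exact hac.symm)
    (by rintro _ (rfl | rfl) <;> assumption)
  obtain ⟨x, hx⟩ := hd a (Or.inl rfl)
  obtain ⟨y, hy⟩ := hd c (Or.inr rfl)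
  have x0 := IsU.diag_ne C.card (hx ▸ C'.uni a)
  have y0 := IsU.diag_ne C.card (hy ▸ C'.uni c)
  choose B hB using exists_col ((C'.uni b).det_ne C.card)
  choose D hD using exists_col ((C'.uni d).det_ne C.card)
  have e1 : ∀ i, x (B i) = s * x i := fun i => diag_rel (by rw [← hx, mu_swap, (hsc _ _).2 h1]) (hB i)
  have e2 : ∀ i, x (D i) = 1 * x i := fun i =>
    diag_rel (by rw [← hx, mu_swap, (hsc _ 1).2 (by rw [h3, one_smul])]) (hD i)
  have e3 : ∀ i, y (D i) = t * y i := fun i => diag_rel (by rw [← hy, mu_swap, (hsc _ _).2 h4]) (hD i)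
  have f1 : ∀ j i, x (B^[j] i) = s ^ j * x i := fun j i => by
    induction j with
    | zero => simp
    | succ j ih => rw [Function.iterate_succ_apply', e1, ih]; ring
  have f2 : ∀ j i, x (D^[j] i) = x i := fun j i => by
    induction j with
    | zero => rfl
    | succ j ih => rw [Function.iterate_succ_apply', e2, ih, one_mul]
  have f3 : ∀ j i, y (D^[j] i) = t ^ j * y i := fun j i => by
    induction j with
    | zero => simp
    | succ j ih => rw [Function.iterate_succ_apply', e3, ih]; ring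
  have := Fintype.card_le_of_injective (fun p : Fin 3 × Fin 3 => D^[p.2] (B^[p.1] i0)) fun p q e => by
    have g1 := congrArg x e
    simp only [f2, f1] at g1
    have g2 := pow_inj_three (F4.of_ne C.card (C.sc_ne i0 h1) hs) _ _ (mul_right_cancel₀ (x0 i0) g1)
    have g3 := congrArg y e
    simp only [f3, g2] at g3
    exact Prod.ext g2 (pow_inj_three (F4.of_ne C.card (C.sc_ne i0 h4) ht) _ _ (mul_right_cancel₀ (y0 _) g3))
  simpa using this

theorem exists_cube (i0 : Fin n) {P : Subgroup W} {m : ℕ} (O : Ofd μ ρ P m) :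
    ∃ D ≤ P, (∀ a ∈ D, μ a ^ 3 = 1) ∧ Nat.card P ≤ 3 * Nat.card D := by
  obtain ⟨D, hle, hm, hc⟩ := exists_sub (card_units C.card) P (fun w => μ (w ^ 3) i0 i0) (fun a ha b hb => by
    obtain ⟨c, hc⟩ := O.cube a ha
    obtain ⟨c', hc'⟩ := O.cube b hb
    obtain ⟨s, hs⟩ := O.comm b hb a ha
    have e : μ b * μ a = s • (μ a * μ b) := by rw [mu_swap, hs, Matrix.smul_mul, Matrix.one_mul]
    have e' : ∀ X, μ b * (μ a * X) = s • (μ a * (μ b * X)) := fun X => by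
      rw [← mul_assoc, e, Matrix.smul_mul, mul_assoc]
    have e2 : μ ((a * b) ^ 3) = μ (a ^ 3) * μ (b ^ 3) := by
      simp only [pow_succ, pow_zero, one_mul, map_mul, mul_assoc, e', Matrix.mul_smul, smul_smul]
      rw [show s * (s * s) = 1 by linear_combination pow_three C.card (C.sc_ne i0 hs), one_smul]
    show μ ((a * b) ^ 3) i0 i0 = μ (a ^ 3) i0 i0 * μ (b ^ 3) i0 i0
    rw [e2, hc, hc', Matrix.smul_mul, Matrix.one_mul, smul_smul, smul_one_apply, smul_one_apply, smul_one_apply])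
    (by simp)
  refine ⟨D, hle, fun a ha => ?_, hc⟩
  obtain ⟨c, hc⟩ := O.cube a (hle ha)
  have e := ((hm a).1 ha).2
  rw [hc, smul_one_apply] at e
  rw [← map_pow, hc, e, one_smul]

theorem exists_torus (i0 : Fin n) (hn : n < 9) {P D : Subgroup W} {m : ℕ} (O : Ofd μ ρ P m) (hD : D ≤ P)
    (h3 : ∀ a ∈ D, μ a ^ 3 = 1) :
    ∃ T ≤ D, (∀ a ∈ T, ∀ b ∈ T, μ a * μ b = μ b * μ a) ∧ Nat.card D ≤ 3 * Nat.card T := by
  by_cases H : ∀ a ∈ D, ∀ b ∈ D, μ ⁅a, b⁆ = 1
  · exact ⟨D, le_rfl, fun a ha b hb => by rw [mu_swap, H a ha b hb, one_mul], by omega⟩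
  push Not at H
  obtain ⟨a, ha, b, hb, hab⟩ := H
  obtain ⟨s, hs⟩ := O.comm a (hD ha) b (hD hb)
  obtain ⟨T, hle, hm, hc⟩ := exists_sub (card_units C.card) D (fun w => μ ⁅a, w⁆ i0 i0) (fun x hx y hy => by
    obtain ⟨c, hc⟩ := O.comm a (hD ha) x (hD hx)
    obtain ⟨c', hc'⟩ := O.comm a (hD ha) y (hD hy)
    have e : μ (x * ⁅a, y⁆ * x⁻¹) = c' • (1 : Mt n F) :=
      mu_conj (by rw [hc', Matrix.smul_mul, Matrix.mul_smul, Matrix.one_mul, Matrix.mul_one])
    show μ ⁅a, x * y⁆ i0 i0 = μ ⁅a, x⁆ i0 i0 * μ ⁅a, y⁆ i0 i0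
    rw [show ⁅a, x * y⁆ = ⁅a, x⁆ * (x * ⁅a, y⁆ * x⁻¹) by simp only [commutatorElement_def]; group, map_mul, e, hc, hc',
      Matrix.smul_mul, Matrix.one_mul, smul_smul, smul_one_apply, smul_one_apply, smul_one_apply]) (by simp)
  have h1 : ∀ c ∈ T, μ ⁅a, c⁆ = 1 := fun c hc => by
    obtain ⟨t, ht⟩ := O.comm a (hD ha) c (hD (hle hc))
    have e := ((hm c).1 hc).2
    rw [ht, smul_one_apply] at e
    rw [ht, e, one_smul]
  refine ⟨T, hle, fun c hc d hd => ?_, hc⟩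
  obtain ⟨t, ht⟩ := O.comm c (hD (hle hc)) d (hD (hle hd))
  by_cases e : t = 1
  · rw [mu_swap, ht, e, one_smul, one_mul]
  · have := C.nine i0 (fun e => hab (by rw [hs, e, one_smul])) e (h3 a ha) (h3 c (hle hc)) hs (h1 c hc) (h1 d hd) ht
    omega

theorem exists_fix {T : Subgroup W} (hd : ∀ a ∈ T, ∃ d, μ a = diagonal d) (i j : Fin n) :
    ∃ B ≤ T, (∀ b ∈ B, ∃ d, μ b = diagonal d ∧ d i = 1 ∧ d j = 1) ∧ Nat.card T ≤ 9 * Nat.card B := by
  have hm : ∀ l, ∀ a ∈ T, ∀ b ∈ T, μ (a * b) l l = μ a l l * μ b l l := fun l a ha b hb => by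
    obtain ⟨d, e⟩ := hd a ha
    obtain ⟨d', e'⟩ := hd b hb
    simp only [map_mul, e, e', diagonal_mul_diagonal, diagonal_apply_eq]
  obtain ⟨B, hB, h1, h2⟩ := exists_sub (card_units C.card) T (fun w => μ w i i) (hm i) (by simp)
  obtain ⟨B', hB', h3, h4⟩ := exists_sub (card_units C.card) B (fun w => μ w j j)
    (fun a ha b hb => hm j a (hB ha) b (hB hb)) (by simp)
  refine ⟨B', hB'.trans hB, fun b hb => ?_, by omega⟩
  obtain ⟨d, e⟩ := hd b (hB (hB' hb))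
  have e1 := ((h1 b).1 (hB' hb)).2
  have e2 := ((h3 b).1 hb).2
  rw [e, diagonal_apply_eq] at e1 e2
  exact ⟨d, e, e1, e2⟩

variable [IsAlgClosed k] (h2 : (2 : k) ≠ 0) (hf : Fth μ ρ)
include h2 hf

theorem no_78 (hn : n = 7 ∨ n = 8) {P : Subgroup W} {m : ℕ} (O : Ofd μ ρ P m) : False := by
  have i0 : Fin n := ⟨0, by omega⟩
  obtain ⟨h1, h3⟩ := C.toral i0 (by rcases hn with rfl | rfl <;> decide) O
  obtain ⟨μ', C', -, -, hd⟩ := C.exists_frame P h1 h3
  have h4 := (Nat.pow_le_pow_iff_right (by norm_num)).1 (O.card.trans (C'.card_le O.pg hd))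
  obtain ⟨a, ha, hs⟩ := C.exists_not_sc i0 O.pg
    (lt_of_lt_of_le (by norm_num) ((Nat.pow_le_pow_right (by norm_num) (Nat.succ_le_succ O.pos)).trans O.card))
  have h5 := C.lb_three (by omega) h2 hf (h3 a ha) hs
  have h6 := cod_le_of_mem (ρ := ρ) ha
  have h7 := O.cod
  rcases hn with rfl | rfl <;> omega

end Cov

/-- the case of equal fixed spaces -/
theorem Cov.no_eight [IsAlgClosed k] {μ : W →* Mt 6 F} (C : Cov μ) (h2 : (2 : k) ≠ 0) (hf : Fth μ ρ)
    {P T : Subgroup W} (hT : IsPGroup 3 T) (hle : T ≤ P) (hd : ∀ a ∈ T, ∃ d, μ a = diagonal d)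
    (hc : 27 ≤ Nat.card T) (h8 : cod ρ P ≤ 8) : False := by
  have h1 : ∀ σ : Equiv.Perm (Fin 6), ∃ p ∈ nrm ρ (fx ρ P), μ p = pm F σ := fun σ => by
    induction σ using Equiv.Perm.swap_induction_on with
    | one => exact ⟨1, one_mem _, by rw [map_one, pm_one]⟩
    | swap_mul σ i j hij ih =>
      obtain ⟨p, hp, e⟩ := ih
      obtain ⟨B, hB, h3, h4⟩ := C.exists_fix hd i j
      obtain ⟨D, x, h5, h6, h7⟩ := C.lb_steps (by norm_num) h2 hf hij (t := 1) (hT.to_le hB) h3 (by omega)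
      obtain ⟨y, hy, hyB⟩ := C.exists_fixed (hT.to_le hB) (isU_pm (Equiv.swap i j)) (det_pm C.card _) fun b hb => by
        obtain ⟨d, e, e1, e2⟩ := h3 b hb
        rw [e, pm_diag]
        congr 2
        ext l
        rw [Equiv.swap_inv, Equiv.swap_apply_def]
        split_ifs with a1 a2
        · rw [a1, e1, e2]
        · rw [a2, e1, e2]
        · rfl
      refine ⟨y * p, mul_mem ?_ hp, by rw [map_mul, hy, e, pm_mul]⟩
      rw [fx_eq_of_cod_le (hB.trans hle) (by omega)]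
      exact le_nrm_iff.2 (inv_fx le_rfl) (Subgroup.centralizer_le_normalizer _ hyB)
  have h3 : ∀ p ∈ nrm ρ (fx ρ P), ∀ a ∈ cl ρ P, p * a * p⁻¹ ∈ cl ρ P := fun p hp a ha => mem_cen.2 fun v hv => by
    rw [rho_mul, rho_mul, mem_cen.1 ha _ (le_nrm_iff.1 le_rfl _ (inv_mem hp) v hv), rho_apply_inv]
  obtain ⟨B, hB, h4, h5⟩ := C.exists_fix hd 0 1
  obtain ⟨a, ha, ha1⟩ : ∃ a ∈ B, a ≠ 1 := by
    by_contra! e
    rw [(Subgroup.eq_bot_iff_forall B).2 e, Subgroup.card_bot] at h5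
    omega
  obtain ⟨d, hda, e0, -⟩ := h4 a ha
  obtain ⟨i, hi⟩ : ∃ i, d i ≠ 1 := by
    by_contra! e
    exact ha1 (C.eq_one_of_mem hT (hB ha) (by rw [hda, funext e, diagonal_one]))
  have hi0 : 0 ≠ i := fun e => hi (e ▸ e0)
  have d0 := IsU.diag_ne C.card (hda ▸ C.uni a)
  have haP : a ∈ cl ρ P := le_cl P (hle (hB ha))
  obtain ⟨p, hp, e⟩ := h1 (Equiv.swap 0 i)
  have h6 : μ (p * a * p⁻¹ * a⁻¹) = diagonal (dd 0 i (d i)) := mu_div (by
    rw [hda, diagonal_mul_diagonal]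
    refine mu_conj ?_
    rw [e, hda, pm_diag]
    congr 2
    ext l
    rw [Equiv.swap_inv, Equiv.swap_apply_def]
    split_ifs with a1 a2
    · rw [a1, dd_left hi0, e0, mul_one]
    · rw [a2, dd_right hi0, e0, ← pow_succ, pow_three C.card (d0 i)]
    · rw [dd_of_ne a1 a2, one_mul])
  have h7 : ∀ s t : Fin 6, s ≠ t → ∃ b ∈ cl ρ P, μ b = diagonal (dd s t (d i)) := fun s t hst => by
    obtain ⟨σ, s1, s2⟩ := exists_perm hi0 hst
    obtain ⟨q, hq, e⟩ := h1 σ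
    exact ⟨_, h3 q hq _ (mul_mem (h3 p hp a haP) (inv_mem haP)), mu_conj (by rw [e, h6, pm_diag, dd_perm, s1, s2])⟩
  obtain ⟨b, hb, eb⟩ := h7 2 3 (by decide)
  obtain ⟨c, hc, ec⟩ := h7 4 5 (by decide)
  obtain ⟨j, hj, hj3⟩ := C.exists_three c (ec ▸ diag_pow_three C.card (dd_ne C.card _ _ (d0 i)))
  have h9 := C.lb_two (ρ := ρ) (by norm_num) h2 hf (i0 := 0) (i1 := 1) (i := 2) (j := 4) (by decide) (by decide)
    (by decide) eb (hj.trans ec) hj3
    (by rw [dd_of_ne (by decide) (by decide), dd_of_ne (by decide) (by decide)])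
    (by rwa [dd_left (by decide), dd_of_ne (by decide) (by decide)])
    (by rw [dd_of_ne (by decide) (by decide), dd_of_ne (by decide) (by decide)])
    (by rw [dd_of_ne (by decide) (by decide), dd_of_ne (by decide) (by decide)])
    (by rwa [dd_left (by decide), dd_of_ne (by decide) (by decide)]) hb (pow_mem hc j)
  rw [cod_cl] at h9
  omega

theorem Cov.no_6 [IsAlgClosed k] {μ : W →* Mt 6 F} (C : Cov μ) (h2 : (2 : k) ≠ 0) (hf : Fth μ ρ)
    {P : Subgroup W} {m : ℕ} (O : Ofd μ ρ P m) : False := by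
  have hc := O.card
  have hcod := O.cod
  have hp : ∀ j, j ≤ m → 3 ^ (j + 1) ≤ Nat.card P := fun j hj =>
    (Nat.pow_le_pow_right (by norm_num) (Nat.succ_le_succ hj)).trans hc
  obtain ⟨a, ha, hs⟩ := C.exists_not_sc 0 O.pg (lt_of_lt_of_le (by norm_num) (hp 1 O.pos))
  have h3 := C.lb_any (by norm_num) h2 hf hs
  have h4 := cod_le_of_mem (ρ := ρ) ha
  obtain ⟨D, hD, hD3, hDc⟩ := C.exists_cube 0 O
  have h5 := hp 2 (by omega)
  obtain ⟨b, hb, hs⟩ := C.exists_not_sc 0 (O.pg.to_le hD) (by omega)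
  have h6 := C.lb_three (by norm_num) h2 hf (hD3 b hb) hs
  have h7 := cod_le_of_mem (ρ := ρ) (hD hb)
  obtain ⟨T, hT, hTc, hTn⟩ := C.exists_torus 0 (by norm_num) O hD hD3
  obtain ⟨μ', C', hsc, -, hd⟩ := C.exists_frame T hTc fun a ha => hD3 a (hT ha)
  have hf' : Fth μ' ρ := fun w hw => (hf w hw).imp fun c hc => (hsc w c).2 hc
  have hTp := O.pg.to_le (hT.trans hD)
  have h8 := C'.card_le hTp hd
  have h9 : m ≤ 7 := by
    by_contra e
    have := hp 8 (by omega)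
    omega
  obtain ⟨B, hB, hB1, hBc⟩ := C'.exists_fix hd 0 1
  have h10 := cod_mono (ρ := ρ) (hB.trans (hT.trans hD))
  obtain rfl | rfl | rfl | rfl : m = 4 ∨ m = 5 ∨ m = 6 ∨ m = 7 := by omega
  · exact C'.no_eight h2 hf' hTp (hT.trans hD) hd (by omega) hcod
  · obtain ⟨D, x, e1, e2, e3⟩ := C'.lb_steps (by norm_num) h2 hf' (show (0 : Fin 6) ≠ 1 by decide) (t := 2)
      (hTp.to_le hB) hB1 (by omega)
    omega
  · obtain ⟨D, x, e1, e2, e3⟩ := C'.lb_steps (by norm_num) h2 hf' (show (0 : Fin 6) ≠ 1 by decide) (t := 3)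
      (hTp.to_le hB) hB1 (by omega)
    omega
  · obtain ⟨D, x, e1, e2, e3⟩ := C'.lb_steps (by norm_num) h2 hf' (show (0 : Fin 6) ≠ 1 by decide) (t := 4)
      (hTp.to_le hB) hB1 (by omega)
    omega

end Cfsg.Agent.TwoF.XL.Un2
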