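import Cfsg.Agent.TwoF.XL.Un2.Heis

/-!
# TwoF XL-Un2: lower bounds for codimensions (helper35)
-/

set_option autoImplicit false
set_option linter.unusedSectionVars false

namespace Cfsg.Agent.TwoF.XL.Un2

open Module Matrix Cfsg.Agent.LieClassical.HermBasic Cfsg.Agent.LieClassical.HermSiegel Gen
open scoped commutatorElement

variable {F : Type} [Field F] [Fintype F] {n : ℕ} {W : Type} [Group W] [Finite W] {μ : W →* Mt n F}
  {k : Type*} [Field k] {V : Type*} [AddCommGroup V] [Module k V] [FiniteDimensional k V] {ρ : Representation k W V}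

/-- the kernel of `ρ` consists of scalars -/
def Fth (μ : W →* Mt n F) (ρ : Representation k W V) : Prop := ∀ w, ρ w = 1 → Sc (μ w)

/-- the `-1`-eigenspace -/
def neg (ρ : Representation k W V) (z : W) : Submodule k V := LinearMap.ker (ρ z + 1)

theorem mem_neg {z : W} {v : V} : v ∈ neg ρ z ↔ ρ z v = -v := by
  rw [neg, LinearMap.mem_ker, LinearMap.add_apply, Module.End.one_apply, add_eq_zero_iff_eq_neg]

theorem neg_inv {z y : W} (h : y * z = z * y) {v : V} (hv : v ∈ neg ρ z) : ρ y v ∈ neg ρ z := by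
  rw [mem_neg] at hv ⊢
  rw [← rho_mul, ← h, rho_mul, hv, map_neg]

theorem finrank_le_cod_add (U : Submodule k V) (B : Subgroup W) :
    finrank k U ≤ cod ρ B + finrank k ↥(U ⊓ fx ρ B) := by
  have h1 := codOn_add (ρ := ρ) U B
  have h2 := codOn_le_cod (ρ := ρ) U B
  omega

namespace Cov

variable (C : Cov μ) (hn : 5 ≤ n) (h2 : (2 : k) ≠ 0)

section Std

variable {ω : F} (h : F4 ω) {i0 i1 : Fin n} (h01 : i0 ≠ i1) {z : W} (H : Hz μ ω i0 i1 z)
include C hn h2 h h01 H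

theorem le_neg [IsAlgClosed k] (hf : Fth μ ρ) : 2 ^ (n - 2) ≤ finrank k (neg ρ z) := by
  choose X hX using fun i : {i : Fin n // i ≠ i0 ∧ i ≠ i1} =>
    C.lift _ (isU_x h h01 i.2 one_ne_zero) (det_x h h01 i.2 one_ne_zero)
  choose Y hY using fun i : {i : Fin n // i ≠ i0 ∧ i ≠ i1} =>
    C.lift _ (isU_x h h01 i.2 h.ne_zero) (det_x h h01 i.2 h.ne_zero)
  have hc : (Finset.univ : Finset {i : Fin n // i ≠ i0 ∧ i ≠ i1}).card = n - 2 := by
    rw [Finset.card_univ, Fintype.card_subtype,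
      show (Finset.univ.filter fun i : Fin n => i ≠ i0 ∧ i ≠ i1) = (Finset.univ.erase i1).erase i0 by ext; simp,
      Finset.card_erase_of_mem (by simpa using h01), Finset.card_erase_of_mem (Finset.mem_univ _), Finset.card_univ,
      Fintype.card_fin]
    omega
  rw [← hc]
  refine anti h2 (fun i => ρ (X i)) (fun i => ρ (Y i)) (fun i => rho_injective ρ _) (fun i => rho_injective ρ _)
    (fun i j hij v => ?_) (fun i j hij v => ?_) _ _ (fun e => ?_)
    (fun i _ v hv => neg_inv (C.comm_z h h01 hn H i.2 (hX i) (hY i)).1 hv)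
    (fun i _ v hv => neg_inv (C.comm_z h h01 hn H i.2 (hX i) (hY i)).2 hv) (fun i _ v hv => ?_)
  · rw [← rho_mul, ← rho_mul,
      C.comm_ij h h01 hn i.2 j.2 (fun e => hij (Subtype.ext e)) (hX i) (hY i) one_ne_zero (hX j)]
  · rw [← rho_mul, ← rho_mul,
      C.comm_ij h h01 hn i.2 j.2 (fun e => hij (Subtype.ext e)) (hX i) (hY i) h.ne_zero (hY j)]
  · refine not_sc_z h h01 (H.mu ▸ hf z (LinearMap.ext fun v => ?_))
    have : ρ z v - v ∈ neg ρ z := by rw [mem_neg, map_sub, ← rho_mul, H.sq, rho_one, neg_sub]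
    rw [e, Submodule.mem_bot, sub_eq_zero] at this
    exact this
  · obtain ⟨c1, c2⟩ := C.comm_z h h01 hn H i.2 (hX i) (hY i)
    rw [← mem_neg.1 (neg_inv c2 (neg_inv c1 hv)), ← rho_mul, ← rho_mul, ← rho_mul,
      ← H.comm i i.2 _ _ (hX i) (hY i), commutatorElement_def]
    congr 2
    group

/-- **halving** -/
theorem half {i : Fin n} (hi : i ≠ i0 ∧ i ≠ i1) {B : Subgroup W} (hB : IsPGroup 3 B)
    (hd : ∀ b ∈ B, ∃ d, μ b = diagonal d ∧ d i1 = d i0 ∧ d i = d i0) {a : W} {d : Fin n → F}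
    (ha : μ a = diagonal d) (hd1 : d i1 = d i0) (hne : d i ≠ d i0) :
    2 * finrank k ↥(neg ρ z ⊓ fx ρ B ⊓ fx ρ (Subgroup.zpowers a)) ≤ finrank k ↥(neg ρ z ⊓ fx ρ B) := by
  obtain ⟨y, hy, hyB⟩ := C.exists_fixed hB (isU_x h h01 hi h.ne_zero) (det_x h h01 hi h.ne_zero) fun b hb => by
    obtain ⟨e, he, e1, e2⟩ := hd b hb
    have h0 := IsU.diag_ne h.card (he ▸ C.uni b)
    rw [he]
    exact diag_x h h0 e1 i (by rw [e2]; linear_combination ω * pow_three h.card (h0 i0))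
  obtain ⟨x, hx⟩ := C.lift _ (isU_x h h01 hi one_ne_zero) (det_x h h01 hi one_ne_zero)
  refine two_mul_le (E' := (neg ρ z ⊓ fx ρ B ⊓ fx ρ (Subgroup.zpowers a)).map (ρ y)) inf_le_left ?_ ?_
    (finrank_map_rho y _).ge
  · rintro _ ⟨v, hv, rfl⟩
    exact ⟨neg_inv (C.comm_z h h01 hn H hi hx hy).2 hv.1.1, fun b hb => by
      rw [← rho_mul, hyB b hb, rho_mul, hv.1.2 b hb]⟩
  · rw [Submodule.eq_bot_iff]
    rintro _ ⟨hw, v, hv, rfl⟩
    have e : z ∈ stab ρ (ρ y v) := C.key h h01 H hi ha hd1 hne hy (mem_fx_zpowers.1 hw.2)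
      (by rw [mem_stab, rho_mul, rho_inv_apply, rho_mul, mem_fx_zpowers.1 hv.2])
    rw [mem_stab, mem_neg.1 hw.1.1] at e
    have e2 : (2 : k) • ρ y v = 0 := by
      rw [two_smul]
      nth_rewrite 1 [← e]
      exact neg_add_cancel _
    exact (smul_eq_zero.1 e2).resolve_left h2

theorem steps (t : ℕ) : ∀ B : Subgroup W, IsPGroup 3 B → (∀ b ∈ B, ∃ d, μ b = diagonal d ∧ d i0 = 1 ∧ d i1 = 1) →
    3 ^ t ≤ Nat.card B → 2 ^ t * finrank k ↥(neg ρ z ⊓ fx ρ B) ≤ finrank k (neg ρ z) := by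
  induction t with
  | zero => exact fun B _ _ _ => by simpa using Submodule.finrank_mono inf_le_left
  | succ t ih =>
    intro B hB hd hc
    obtain ⟨a, ha, ha1⟩ : ∃ a ∈ B, a ≠ 1 := by
      by_contra! e
      rw [(Subgroup.eq_bot_iff_forall B).2 e, Subgroup.card_bot] at hc
      have := Nat.one_lt_pow (n := t + 1) (a := 3) (by omega) (by omega)
      omega
    obtain ⟨d, hda, e0, e1⟩ := hd a ha
    obtain ⟨i, hi⟩ : ∃ i, d i ≠ 1 := by
      by_contra! e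
      exact ha1 (C.eq_one_of_mem hB ha (by rw [hda, funext e, diagonal_one]))
    obtain ⟨B', hle, hm, hcard⟩ := exists_sub (card_units h.card) B (fun w => μ w i i) (fun a ha b hb => by
      obtain ⟨d, e, -⟩ := hd a ha
      obtain ⟨d', e', -⟩ := hd b hb
      simp only [map_mul, e, e', diagonal_mul_diagonal, diagonal_apply_eq]) (by simp)
    have h5 := ih B' (hB.to_le hle) (fun b hb => hd b (hle hb)) (by rw [pow_succ] at hc; omega)
    have h6 := C.half (ρ := ρ) hn h2 h h01 H (i := i) ⟨fun e => hi (e ▸ e0), fun e => hi (e ▸ e1)⟩ (hB.to_le hle)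
      (fun b hb => by
        obtain ⟨d', e', f0, f1⟩ := hd b (hle hb)
        refine ⟨d', e', f1.trans f0.symm, ?_⟩
        have := ((hm b).1 hb).2
        rw [e', diagonal_apply_eq] at this
        exact this.trans f0.symm) hda (e1.trans e0.symm) (e0 ▸ hi)
    have h7 : finrank k ↥(neg ρ z ⊓ fx ρ B) ≤ finrank k ↥(neg ρ z ⊓ fx ρ B' ⊓ fx ρ (Subgroup.zpowers a)) :=
      Submodule.finrank_mono (le_inf (inf_le_inf_left _ (fx_anti hle))
        (inf_le_right.trans (fx_anti (Subgroup.zpowers_le.2 ha))))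
    calc 2 ^ (t + 1) * finrank k ↥(neg ρ z ⊓ fx ρ B) = 2 ^ t * (2 * finrank k ↥(neg ρ z ⊓ fx ρ B)) := by ring
      _ ≤ 2 ^ t * finrank k ↥(neg ρ z ⊓ fx ρ B') := Nat.mul_le_mul_left _ (by omega)
      _ ≤ _ := h5

end Std

variable [IsAlgClosed k] (hf : Fth μ ρ)
include C hn h2 hf

/-- a diagonal group of order `3 ^ t` that fixes two vectors of the basis -/
theorem lb_steps {i0 i1 : Fin n} (h01 : i0 ≠ i1) {t : ℕ} {B : Subgroup W} (hB : IsPGroup 3 B)
    (hd : ∀ b ∈ B, ∃ d, μ b = diagonal d ∧ d i0 = 1 ∧ d i1 = 1) (hc : 3 ^ t ≤ Nat.card B) :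
    ∃ D x, 2 ^ (n - 2) ≤ D ∧ 2 ^ t * x ≤ D ∧ D ≤ cod ρ B + x := by
  obtain ⟨ω, h⟩ := exists_F4 C.card
  obtain ⟨z, H⟩ := C.exists_hz h h01 hn
  exact ⟨_, _, C.le_neg hn h2 h h01 H hf, C.steps hn h2 h h01 H t B hB hd hc, finrank_le_cod_add _ B⟩

/-- two steps -/
theorem lb_two {i0 i1 i j : Fin n} (h01 : i0 ≠ i1) (hi : i ≠ i0 ∧ i ≠ i1) (hj : j ≠ i0 ∧ j ≠ i1) {a b : W}
    {d e : Fin n → F} (ha : μ a = diagonal d) (hb : μ b = diagonal e) (hb3 : b ^ 3 = 1) (d1 : d i1 = d i0)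
    (d2 : d i ≠ d i0) (e1 : e i1 = e i0) (e2 : e i = e i0) (e3 : e j ≠ e i0) {N : Subgroup W} (haN : a ∈ N)
    (hbN : b ∈ N) : 3 * 2 ^ (n - 2) ≤ 4 * cod ρ N := by
  haveI : Fact (Nat.Prime 3) := ⟨Nat.prime_three⟩
  obtain ⟨ω, h⟩ := exists_F4 C.card
  obtain ⟨z, H⟩ := C.exists_hz h h01 hn
  have h3 := C.le_neg hn h2 h h01 H hf
  have h4 := C.half (ρ := ρ) hn h2 h h01 H hi (B := Subgroup.zpowers b) (elemAb_isPGroup (elemAb_zpowers hb3))
    (fun c hc => by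
      obtain ⟨m, rfl⟩ := (mem_powers_iff_mem_zpowers.2 hc : c ∈ Submonoid.powers b)
      exact ⟨e ^ m, by simp only [map_pow, hb, diagonal_pow], by simp only [Pi.pow_apply, e1],
        by simp only [Pi.pow_apply, e2]⟩) ha d1 d2
  have h5 := C.half (ρ := ρ) hn h2 h h01 H hj (B := ⊥) IsPGroup.of_bot
    (fun c hc => ⟨fun _ => 1, by rw [Subgroup.mem_bot.1 hc, map_one, diagonal_one], rfl, rfl⟩) hb e1 e3
  rw [fx_bot, inf_top_eq] at h5
  have h6 := finrank_le_cod_add (ρ := ρ) (neg ρ z) N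
  have h7 : finrank k ↥(neg ρ z ⊓ fx ρ N) ≤
      finrank k ↥(neg ρ z ⊓ fx ρ (Subgroup.zpowers b) ⊓ fx ρ (Subgroup.zpowers a)) :=
    Submodule.finrank_mono (le_inf (inf_le_inf_left _ (fx_anti (Subgroup.zpowers_le.2 hbN)))
      (inf_le_right.trans (fx_anti (Subgroup.zpowers_le.2 haN))))
  omega

/-- elements whose image has order three -/
theorem lb_three {a : W} (h3 : μ a ^ 3 = 1) (hs : ¬ Sc (μ a)) : 2 ^ (n - 2) ≤ 2 * cod ρ (Subgroup.zpowers a) := by
  obtain ⟨μ', C', hsc, -, hd⟩ := C.exists_frame {a} (by rintro _ rfl _ rfl; rfl) (by rintro _ rfl; exact h3)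
  obtain ⟨d, hd⟩ := hd a rfl
  have hf' : Fth μ' ρ := fun w hw => (hf w hw).imp fun c hc => (hsc w c).2 hc
  have h0 := IsU.diag_ne C.card (hd ▸ C'.uni a)
  obtain ⟨i0, i1, e, h01⟩ := (Function.not_injective_iff (f := fun i => Units.mk0 _ (h0 i))).1 fun hi => by
    have := Nat.card_le_card_of_injective _ hi
    rw [card_units C.card, Nat.card_fin] at this
    omega
  have e1 : d i1 = d i0 := (congrArg Units.val e).symm
  obtain ⟨i, hi⟩ : ∃ i, d i ≠ d i0 := by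
    by_contra! e'
    exact hs ⟨d i0, (hsc a _).1 (by rw [hd, smul_one_eq_diagonal]; exact congrArg diagonal (funext e'))⟩
  obtain ⟨ω, h⟩ := exists_F4 C.card
  obtain ⟨z, H⟩ := C'.exists_hz h h01 hn
  have h4 := C'.le_neg hn h2 h h01 H hf'
  have h5 := C'.half (ρ := ρ) hn h2 h h01 H (i := i) ⟨fun e => hi (e ▸ rfl), fun e => hi (e ▸ e1)⟩ (B := ⊥)
    IsPGroup.of_bot
    (fun c hc => ⟨fun _ => 1, by rw [Subgroup.mem_bot.1 hc, map_one, diagonal_one], rfl, rfl⟩) hd e1 hi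
  rw [fx_bot, inf_top_eq] at h5
  have h6 := finrank_le_cod_add (ρ := ρ) (neg ρ z) (Subgroup.zpowers a)
  omega

/-- all elements that are not scalar -/
theorem lb_any {a : W} (hs : ¬ Sc (μ a)) : 2 ^ (n - 2) ≤ 4 * cod ρ (Subgroup.zpowers a) := by
  obtain ⟨u, hu, hau⟩ := exists_iso C.card ⟨0, by omega⟩ hs
  obtain ⟨y, hy⟩ := C.lift _ (siegelMat_herm C.card (isS_tv C.card hu)) (siegelMat_det C.card (isS_tv C.card hu))
  have e : μ (a * y * a⁻¹ * y⁻¹) = siegelMat 2 (μ a *ᵥ u) 0 1 * siegelMat 2 u 0 1 := mu_div (by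
    rw [hy, mul_assoc (siegelMat 2 _ 0 1), tv_sq C.card hu, mul_one]
    exact mu_conj (by rw [hy, sm_conj (C.uni a), mulVec_zero]))
  obtain ⟨e1, e2⟩ := braid C.card hu ((C.uni a u u).trans hu) hau
  have h3 := C.lb_three hn h2 hf (e ▸ e1) (e ▸ e2)
  have h4 := cod_zpowers_commutator_le (ρ := ρ) a y
  omega

end Cov

end Cfsg.Agent.TwoF.XL.Un2
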