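import Cfsg.Agent.LieClassical.HermSiegel
import Cfsg.Agent.ClassicalGeometry.HermOrtho
import Cfsg.Agent.ClassicalGeometry.GUBasic

/-!
# TwoF XL-Un2: unitary matrices over the field with four elements (helper35)
-/

set_option autoImplicit false
set_option linter.unusedSectionVars false

namespace Cfsg.Agent.TwoF.XL.Un2

open Module Matrix Cfsg.Agent.LieClassical.HermBasic Cfsg.Agent.LieClassical.HermSiegel
  Cfsg.Agent.ClassicalGeometry

variable {F : Type} [Field F] [Fintype F] {n : ℕ}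

/-- `F` has four elements, `ω` is a primitive third root of unity -/
structure F4 (ω : F) : Prop where
  card : Fintype.card F = 2 ^ 2
  om : ω ^ 2 + ω + 1 = 0

theorem pow_three (hF : Fintype.card F = 2 ^ 2) {x : F} (hx : x ≠ 0) : x ^ 3 = 1 := by
  have := FiniteField.pow_card_sub_one_eq_one x hx
  rwa [hF] at this

theorem two_eq (hF : Fintype.card F = 2 ^ 2) : (2 : F) = 0 := by
  have h := FiniteField.cast_card_eq_zero F
  rw [hF, Nat.cast_pow] at h
  exact_mod_cast pow_eq_zero_iff (two_ne_zero) |>.1 h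

theorem card_units (hF : Fintype.card F = 2 ^ 2) : Nat.card Fˣ = 3 := card_units_eq hF

theorem exists_F4 (hF : Fintype.card F = 2 ^ 2) : ∃ ω : F, F4 ω := by
  obtain ⟨c, hc, h1⟩ := GUBasic.exists_norm_one hF
  refine ⟨c, hF, ?_⟩
  have h : (c - 1) * (c ^ 2 + c + 1) = 0 := by linear_combination hc
  exact (mul_eq_zero.1 h).resolve_left (sub_ne_zero.2 h1)

namespace F4

variable {ω : F} (h : F4 ω)
include h

theorem two : (2 : F) = 0 := two_eq h.card

theorem ne_zero : ω ≠ 0 := by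
  rintro rfl
  have := h.om
  simp at this

theorem three : ω ^ 3 = 1 := pow_three h.card h.ne_zero

theorem ne_one : ω ≠ 1 := by
  intro e
  have h1 := h.om
  rw [e] at h1
  exact one_ne_zero (by linear_combination h1 - h.two : (1 : F) = 0)

theorem sq_ne_one : ω ^ 2 ≠ 1 := fun e => h.ne_zero (by linear_combination h.om - e - h.two)

theorem cases {x : F} (hx : x ≠ 0) : x = 1 ∨ x = ω ∨ x = ω ^ 2 := by
  have h1 : (x - 1) * ((x - ω) * (x - ω ^ 2)) = 0 := by
    linear_combination pow_three h.card hx + (x - x ^ 2) * h.om + (x - 1) * h.three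
  rcases mul_eq_zero.1 h1 with e | e
  · exact Or.inl (sub_eq_zero.1 e)
  · exact Or.inr ((mul_eq_zero.1 e).imp sub_eq_zero.1 sub_eq_zero.1)

end F4

theorem F4.of_ne (hF : Fintype.card F = 2 ^ 2) {x : F} (h0 : x ≠ 0) (h1 : x ≠ 1) : F4 x := by
  refine ⟨hF, ?_⟩
  have h : (x - 1) * (x ^ 2 + x + 1) = 0 := by linear_combination pow_three hF h0
  exact (mul_eq_zero.1 h).resolve_left (sub_ne_zero.2 h1)

/-- square matrices -/
abbrev Mt (n : ℕ) (F : Type) : Type := Matrix (Fin n) (Fin n) F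

/-- unitary -/
def IsU (M : Mt n F) : Prop := ∀ u v, hermForm n F 2 (M *ᵥ u) (M *ᵥ v) = hermForm n F 2 u v

/-- scalar -/
def Sc (M : Mt n F) : Prop := ∃ c : F, M = c • (1 : Mt n F)

theorem ext_mv {A B : Mt n F} (h : ∀ v, A *ᵥ v = B *ᵥ v) : A = B := Matrix.toLin'.injective (LinearMap.ext h)

theorem IsU.mul {A B : Mt n F} (hA : IsU A) (hB : IsU B) : IsU (A * B) := fun u v => by
  rw [← mulVec_mulVec, ← mulVec_mulVec, hA, hB]

theorem IsU.det (hF : Fintype.card F = 2 ^ 2) {A : Mt n F} (hA : IsU A) : A.det ^ 3 = 1 := GUBasic.det_pow hF hA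

theorem IsU.det_ne (hF : Fintype.card F = 2 ^ 2) {A : Mt n F} (hA : IsU A) : A.det ≠ 0 := fun e => by
  have := hA.det hF
  rw [e] at this
  simp at this

theorem isU_diag (hF : Fintype.card F = 2 ^ 2) {d : Fin n → F} (hd : ∀ i, d i ≠ 0) : IsU (diagonal d) :=
  (GUBasic.guDiag 2 d fun i => pow_three hF (hd i)).2

theorem IsU.diag_ne (hF : Fintype.card F = 2 ^ 2) {d : Fin n → F} (hd : IsU (diagonal d)) (i : Fin n) : d i ≠ 0 := by
  have := hd.det_ne hF
  rw [det_diagonal, Finset.prod_ne_zero_iff] at this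
  exact this i (Finset.mem_univ i)

theorem diag_pow_three (hF : Fintype.card F = 2 ^ 2) {d : Fin n → F} (hd : ∀ i, d i ≠ 0) :
    (diagonal d : Mt n F) ^ 3 = 1 := by
  rw [diagonal_pow, ← diagonal_one]
  exact congrArg diagonal (funext fun i => pow_three hF (hd i))

/-- permutation matrices -/
def pm (F : Type) [Field F] (σ : Equiv.Perm (Fin n)) : Mt n F := σ⁻¹.permMatrix F

theorem pm_mulVec (σ : Equiv.Perm (Fin n)) (v : Fin n → F) : pm F σ *ᵥ v = fun i => v (σ⁻¹ i) := permMatrix_mulVec _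

theorem pm_mul (σ τ : Equiv.Perm (Fin n)) : pm F (σ * τ) = pm F σ * pm F τ := by
  rw [pm, _root_.mul_inv_rev, permMatrix_mul]; rfl

theorem pm_one : pm F (1 : Equiv.Perm (Fin n)) = 1 := by rw [pm, inv_one, permMatrix_one]

theorem pm_pow (σ : Equiv.Perm (Fin n)) (j : ℕ) : pm F (σ ^ j) = pm F σ ^ j := by
  induction j with
  | zero => rw [pow_zero, pow_zero, pm_one]
  | succ j ih => rw [pow_succ, pow_succ, pm_mul, ih]

theorem isU_pm (σ : Equiv.Perm (Fin n)) : IsU (pm F σ) := (GUBasic.guPerm 2 σ⁻¹).2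

theorem det_pm (hF : Fintype.card F = 2 ^ 2) (σ : Equiv.Perm (Fin n)) : (pm F σ).det = 1 := by
  rw [pm, det_permutation]
  rcases Int.units_eq_one_or (Equiv.Perm.sign σ⁻¹) with h1 | h1 <;> rw [h1]
  · simp
  · simp only [Units.val_neg, Units.val_one, Int.cast_neg, Int.cast_one]
    linear_combination -two_eq hF

theorem pm_single (σ : Equiv.Perm (Fin n)) (i : Fin n) (c : F) :
    pm F σ *ᵥ Pi.single i c = Pi.single (σ i) c := by
  rw [pm_mulVec]
  ext j
  by_cases e : j = σ i
  · subst e; simp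
  · rw [Pi.single_eq_of_ne e, Pi.single_eq_of_ne]
    rintro rfl
    simp at e

theorem pm_diag (σ : Equiv.Perm (Fin n)) (d : Fin n → F) :
    pm F σ * diagonal d = diagonal (fun i => d (σ⁻¹ i)) * pm F σ := ext_mv fun v => by
  rw [← mulVec_mulVec, ← mulVec_mulVec, pm_mulVec, pm_mulVec]
  ext i
  rw [mulVec_diagonal, mulVec_diagonal]

/-! ### Siegel matrices -/

theorem sm_mul (hF : Fintype.card F = 2 ^ 2) {u w w' : Fin n → F} {a a' : F} (h : IsSiegel 2 u w a)
    (h' : IsSiegel 2 u w' a') : siegelMat 2 u w a * siegelMat 2 u w' a' =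
      siegelMat 2 u (w + w') (a + a' - hermForm n F 2 w' w) :=
  (mat_mul _ _).symm.trans (congrArg mat (siegel_mul hF h h'))

theorem sm_zero (u : Fin n → F) : siegelMat 2 u 0 0 = 1 := by
  ext i j
  simp [siegelMat, vecMulVec_apply]

theorem sm_conj {M : Mt n F} (hM : IsU M) (u w : Fin n → F) (a : F) :
    M * siegelMat 2 u w a = siegelMat 2 (M *ᵥ u) (M *ᵥ w) a * M := ext_mv fun v => by
  rw [← mulVec_mulVec, ← mulVec_mulVec, siegelMat_mulVec, siegelMat_mulVec, hM, hM, mulVec_add, mulVec_add,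
    mulVec_smul, mulVec_smul]

theorem sm_smul (hF : Fintype.card F = 2 ^ 2) {c : F} (hc : c ≠ 0) (u w : Fin n → F) (a : F) :
    siegelMat 2 (c • u) w a = siegelMat 2 u (c ^ 2 • w) a := ext_mv fun v => by
  rw [siegelMat_mulVec, siegelMat_mulVec, herm_smul_right, herm_smul_right, smul_smul, smul_smul]
  have h3 := pow_three hF hc
  congr 2
  · rw [mul_comm]
  · linear_combination (a * hermForm n F 2 v u + c * hermForm n F 2 v w) * h3

theorem sm_conj' (hF : Fintype.card F = 2 ^ 2) {M : Mt n F} (hM : IsU M) {u : Fin n → F} {c : F} (hc : c ≠ 0)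
    (hu : M *ᵥ u = c • u) (w : Fin n → F) (a : F) :
    M * siegelMat 2 u w a = siegelMat 2 u (c ^ 2 • M *ᵥ w) a * M := by
  rw [sm_conj hM, hu, sm_smul hF hc]

theorem isS_tv (hF : Fintype.card F = 2 ^ 2) {u : Fin n → F} (hu : hermForm n F 2 u u = 0) : IsSiegel 2 u 0 (1 : F) :=
  ⟨hu, herm_zero_left _, by rw [herm_zero_left]; linear_combination two_eq hF⟩

theorem tv_sq (hF : Fintype.card F = 2 ^ 2) {u : Fin n → F} (hu : hermForm n F 2 u u = 0) :
    siegelMat 2 u 0 1 * siegelMat 2 u 0 1 = 1 := by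
  rw [sm_mul hF (isS_tv hF hu) (isS_tv hF hu), add_zero, herm_zero_left, sub_zero, one_add_one_eq_two, two_eq hF,
    sm_zero]

theorem tv_mulVec (hF : Fintype.card F = 2 ^ 2) (u v : Fin n → F) :
    siegelMat 2 u 0 1 *ᵥ v = v + hermForm n F 2 v u • u := by
  rw [siegelMat_mulVec, smul_zero, add_zero, one_mul, herm_zero_right hF, sub_zero]

/-- two transvections that generate `SU 2` -/
theorem braid (hF : Fintype.card F = 2 ^ 2) {u v : Fin n → F} (hu : hermForm n F 2 u u = 0)
    (hv : hermForm n F 2 v v = 0) (h : hermForm n F 2 v u ≠ 0) :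
    (siegelMat 2 v 0 1 * siegelMat 2 u 0 1) ^ 3 = 1 ∧ ¬ Sc (siegelMat 2 v 0 1 * siegelMat 2 u 0 1) := by
  have hs := herm_swap hF v u
  have h3 := pow_three hF h
  have h' : hermForm n F 2 u v ≠ 0 := by rw [hs]; exact pow_ne_zero _ h
  constructor
  · set s := siegelMat 2 u 0 (1 : F) with hs'
    set t := siegelMat 2 v 0 (1 : F) with ht'
    have hss : s * s = 1 := tv_sq hF hu
    have htt : t * t = 1 := tv_sq hF hv
    have e1 : s * t = siegelMat 2 (s *ᵥ v) 0 1 * s := by
      have := sm_conj (M := s) (siegelMat_herm hF (isS_tv hF hu)) v 0 1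
      rwa [mulVec_zero] at this
    have e2 : t * s = siegelMat 2 (s *ᵥ v) 0 1 * t := by
      have := sm_conj (M := t) (siegelMat_herm hF (isS_tv hF hv)) u 0 1
      rw [mulVec_zero] at this
      have e : t *ᵥ u = hermForm n F 2 u v • (s *ᵥ v) := by
        rw [ht', hs', tv_mulVec hF, tv_mulVec hF, smul_add, smul_smul, add_comm,
          show hermForm n F 2 u v * hermForm n F 2 v u = 1 by rw [hs]; linear_combination h3, one_smul]
      rwa [e, sm_smul hF h', smul_zero] at this
    set r := siegelMat 2 (s *ᵥ v) 0 (1 : F)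
    have e3 : s * t * s = r := by rw [e1, Matrix.mul_assoc, hss, Matrix.mul_one]
    have e4 : t * s * t = r := by rw [e2, Matrix.mul_assoc, htt, Matrix.mul_one]
    calc (t * s) ^ 3 = (t * s * t) * (s * t * s) := by simp only [pow_succ, pow_zero, one_mul, Matrix.mul_assoc]
      _ = (s * t * s) * (s * t * s) := by rw [e3, e4]
      _ = s * (t * (s * s) * t) * s := by simp only [Matrix.mul_assoc]
      _ = 1 := by rw [hss, Matrix.mul_one, htt, Matrix.mul_one, hss]
  · rintro ⟨c, hc⟩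
    have e := congrArg (fun M : Mt n F => hermForm n F 2 (M *ᵥ u) u) hc
    simp only [← mulVec_mulVec, tv_mulVec hF, hu, zero_smul, add_zero, smul_mulVec, one_mulVec, herm_add_left,
      herm_smul_left, mul_zero, zero_add] at e
    exact mul_ne_zero h' h e

theorem herm_pair (hF : Fintype.card F = 2 ^ 2) (x : Fin n → F) (i j : Fin n) (c : F) :
    hermForm n F 2 x (Pi.single i 1 + Pi.single j c) = x i + x j * c ^ 2 := by
  rw [herm_add_right hF, herm_single_right hF, herm_single_right hF, one_pow, mul_one]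

theorem iso_pair (hF : Fintype.card F = 2 ^ 2) {i j : Fin n} (hij : i ≠ j) {c : F} (hc : c ≠ 0) :
    hermForm n F 2 (Pi.single i 1 + Pi.single j c) (Pi.single i 1 + Pi.single j c) = 0 := by
  rw [herm_pair hF]
  simp only [Pi.add_apply, Pi.single_eq_same, Pi.single_eq_of_ne hij, Pi.single_eq_of_ne hij.symm]
  linear_combination pow_three hF hc + two_eq hF

/-- a matrix that is not scalar moves an isotropic vector out of its orthogonal complement -/
theorem exists_iso (hF : Fintype.card F = 2 ^ 2) (i0 : Fin n) {M : Mt n F} (hM : ¬ Sc M) :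
    ∃ u, hermForm n F 2 u u = 0 ∧ hermForm n F 2 (M *ᵥ u) u ≠ 0 := by
  by_contra! H
  obtain ⟨ω, h⟩ := exists_F4 hF
  have key : ∀ i j, i ≠ j → M i j = 0 ∧ M i i = M j j := by
    intro i j hij
    have e : ∀ c : F, c ≠ 0 → M i i + M i j * c + (M j i + M j j * c) * c ^ 2 = 0 := fun c hc => by
      have := H _ (iso_pair hF hij hc)
      rw [herm_pair hF] at this
      simpa only [mulVec_add, mulVec_single, Pi.add_apply, MulOpposite.op_one, one_smul, Pi.smul_apply,
        MulOpposite.smul_eq_mul_unop, MulOpposite.unop_op, col_apply] using this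
    have e1 := e 1 one_ne_zero
    have e2 := e ω h.ne_zero
    have e3 := e (ω ^ 2) (pow_ne_zero _ h.ne_zero)
    have h2 := h.two
    have h3 := h.three
    have ho := h.om
    have e4 : M i i + M j j = 0 := by
      linear_combination e1 + e2 + e3 - (M i j + M j i) * ho - (M j i * ω + M j j * (ω ^ 3 + 2)) * h3 -
        (M i i + M j j) * h2
    have e5 : M i j + M j i = 0 := by linear_combination e1 - e4
    constructor
    · linear_combination e2 - e4 - ω ^ 2 * e5 - M j j * h3 + M i j * ho - ω * M i j * h2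
    · linear_combination e4 - M j j * h2
  refine hM ⟨M i0 i0, ?_⟩
  ext i j
  by_cases e : i = j
  · subst e
    rw [Matrix.smul_apply, one_apply_eq, smul_eq_mul, mul_one]
    by_cases e' : i = i0
    · rw [e']
    · exact (key i i0 e').2
  · rw [Matrix.smul_apply, one_apply_ne e, smul_zero, (key i j e).1]

/-! ### simultaneous diagonalisation -/

section Diag

open HermOrtho

variable (hF : Fintype.card F = 2 ^ 2) {S : Set (Mt n F)} (hU : ∀ M ∈ S, IsU M)
  (hc : ∀ M ∈ S, ∀ N ∈ S, M * N = N * M) (h3 : ∀ M ∈ S, M ^ 3 = 1)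
include hF hU hc h3

theorem exists_eig (d : ℕ) : ∀ W : Submodule F (Fin n → F), finrank F W ≤ d → W ≠ ⊥ →
    (∀ u ∈ W, (∀ v ∈ W, hermForm n F 2 u v = 0) → u = 0) → (∀ M ∈ S, ∀ v ∈ W, M *ᵥ v ∈ W) →
    ∃ v ∈ W, hermForm n F 2 v v = 1 ∧ ∀ M ∈ S, ∃ c : F, M *ᵥ v = c • v := by
  induction d with
  | zero => exact fun W h h0 => (h0 (Submodule.finrank_eq_zero.1 (Nat.le_zero.1 h))).elim
  | succ d ih =>
    intro W hd h0 hW hi
    by_cases H : ∀ M ∈ S, ∃ c : F, ∀ v ∈ W, M *ᵥ v = c • v
    · obtain ⟨v, hv, hvv⟩ := exists_norm_one_vector hF W hW h0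
      exact ⟨v, hv, hvv, fun M hM => (H M hM).imp fun c hc => hc v hv⟩
    push Not at H
    obtain ⟨M, hM, H⟩ := H
    obtain ⟨ω, h⟩ := exists_F4 hF
    have hMMM : ∀ w, M *ᵥ (M *ᵥ (M *ᵥ w)) = w := fun w => by
      rw [mulVec_mulVec, mulVec_mulVec, ← pow_three', h3 M hM, one_mulVec]
    have hp : ∀ l : F, l ≠ 0 → ∀ w, M *ᵥ (w + l ^ 2 • M *ᵥ w + l • M *ᵥ (M *ᵥ w)) =
        l • (w + l ^ 2 • M *ᵥ w + l • M *ᵥ (M *ᵥ w)) := fun l hl w => by
      rw [mulVec_add, mulVec_add, mulVec_smul, mulVec_smul, hMMM, smul_add, smul_add, smul_smul, smul_smul,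
        ← pow_succ', pow_three hF hl, one_smul, ← pow_two]
      abel
    have hpW : ∀ l : F, ∀ w ∈ W, w + l ^ 2 • M *ᵥ w + l • M *ᵥ (M *ᵥ w) ∈ W := fun l w hw =>
      W.add_mem (W.add_mem hw (W.smul_mem _ (hi M hM w hw))) (W.smul_mem _ (hi M hM _ (hi M hM w hw)))
    obtain ⟨l, hl, x, hx, hx0, hxl⟩ : ∃ l : F, l ≠ 0 ∧ ∃ x ∈ W, x ≠ 0 ∧ M *ᵥ x = l • x := by
      by_contra! H'
      obtain ⟨w, hw, hw0⟩ := (Submodule.ne_bot_iff W).1 h0
      have e : ∀ l : F, l ≠ 0 → w + l ^ 2 • M *ᵥ w + l • M *ᵥ (M *ᵥ w) = 0 := fun l hl => by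
        by_contra e
        exact H' l hl _ (hpW l w hw) e (hp l hl w)
      have e1 := e 1 one_ne_zero
      have e2 := e ω h.ne_zero
      have e3 := e (ω ^ 2) (pow_ne_zero _ h.ne_zero)
      refine hw0 (funext fun i => ?_)
      have e1 := congrFun e1 i
      have e2 := congrFun e2 i
      have e3 := congrFun e3 i
      simp only [Pi.add_apply, Pi.smul_apply, smul_eq_mul, Pi.zero_apply] at e1 e2 e3 ⊢
      linear_combination e1 + e2 + e3 - ((M *ᵥ w) i + (M *ᵥ (M *ᵥ w)) i) * h.om - ω * (M *ᵥ w) i * h.three -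
        w i * h.two
    set E : Submodule F (Fin n → F) := W ⊓ Module.End.eigenspace (Matrix.toLin' M) l with hE
    have hmem : ∀ w, w ∈ E ↔ w ∈ W ∧ M *ᵥ w = l • w := fun w => by
      rw [hE, Submodule.mem_inf, Module.End.mem_eigenspace_iff, toLin'_apply]
    have hlt : E < W := lt_of_le_of_ne inf_le_left fun e => by
      obtain ⟨v, hv, hv'⟩ := H l
      exact hv' ((hmem v).1 (e ▸ hv)).2
    obtain ⟨v, hv, hvv⟩ := ih E (Nat.lt_succ_iff.1 ((Submodule.finrank_lt_finrank_of_lt hlt).trans_le hd))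
      (fun e => hx0 ((Submodule.eq_bot_iff _).1 e _ ((hmem _).2 ⟨hx, hxl⟩))) (fun u hu H' => by
        obtain ⟨huW, hul⟩ := (hmem u).1 hu
        refine hW u huW fun w hw => ?_
        have e := H' _ ((hmem _).2 ⟨hpW l w hw, hp l hl w⟩)
        have e1 := hU M hM u w
        have e2 := hU M hM u (M *ᵥ w)
        rw [hul, herm_smul_left] at e1 e2
        rw [herm_add_right hF, herm_add_right hF, herm_smul_right, herm_smul_right] at e
        have l3 := pow_three hF hl
        linear_combination e - l ^ 3 * e1 - l * e2 - e1 - hermForm n F 2 u w * l3 - hermForm n F 2 u w * two_eq hF)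
      (fun N hN w hw => (hmem _).2 ⟨hi N hN w ((hmem _).1 hw).1, by
        rw [mulVec_mulVec, hc M hM N hN, ← mulVec_mulVec, ((hmem _).1 hw).2, mulVec_smul]⟩)
    exact ⟨v, hlt.le hv, hvv⟩

theorem exists_basis (k : ℕ) : ∀ W : Submodule F (Fin n → F),
    (∀ u ∈ W, (∀ v ∈ W, hermForm n F 2 u v = 0) → u = 0) → (∀ M ∈ S, ∀ v ∈ W, M *ᵥ v ∈ W) → finrank F W = k →
    ∃ b : Fin k → (Fin n → F), (∀ i, b i ∈ W) ∧ (∀ i, ∀ M ∈ S, ∃ c : F, M *ᵥ b i = c • b i) ∧
      ∀ i j, hermForm n F 2 (b i) (b j) = if i = j then 1 else 0 := by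
  induction k with
  | zero =>
    intro W _ _ _
    exact ⟨fun i => i.elim0, fun i => i.elim0, fun i => i.elim0, fun i => i.elim0⟩
  | succ k ih =>
    intro W hW hi hk
    have hW0 : W ≠ ⊥ := by
      rintro rfl
      rw [finrank_bot] at hk
      omega
    obtain ⟨v, hv, hvv, hve⟩ := exists_eig hF hU hc h3 _ W le_rfl hW0 hW hi
    set W' : Submodule F (Fin n → F) := W ⊓ hermPerp 2 {v} with hW'
    have hmem : ∀ w, w ∈ W' ↔ w ∈ W ∧ hermForm n F 2 w v = 0 := by
      intro w
      rw [hW', Submodule.mem_inf, mem_hermPerp]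
      simp
    have hdec : ∀ w ∈ W, w - hermForm n F 2 w v • v ∈ W' := by
      intro w hw
      rw [hmem]
      refine ⟨W.sub_mem hw (W.smul_mem _ hv), ?_⟩
      rw [herm_sub_left, herm_smul_left, hvv, mul_one, sub_self]
    have hnd : ∀ u ∈ W', (∀ w ∈ W', hermForm n F 2 u w = 0) → u = 0 := by
      intro u hu h
      refine hW u ((hmem u).1 hu).1 fun w hw => ?_
      have h1 := h _ (hdec w hw)
      rw [herm_sub_right hF, herm_smul_right, ((hmem u).1 hu).2, mul_zero, sub_zero] at h1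
      exact h1
    have hinv : ∀ M ∈ S, ∀ w ∈ W', M *ᵥ w ∈ W' := by
      intro M hM w hw
      refine (hmem _).2 ⟨hi M hM w ((hmem w).1 hw).1, ?_⟩
      obtain ⟨c, hcv⟩ := hve M hM
      have e1 := hU M hM v v
      have e2 := hU M hM w v
      rw [hcv, herm_smul_left, herm_smul_right, hvv] at e1
      rw [hcv, herm_smul_right, ((hmem w).1 hw).2] at e2
      linear_combination c * e2 - hermForm n F 2 (M *ᵥ w) v * e1
    have hrank : finrank F W' = k := by
      have h1 := LinearMap.finrank_range_add_finrank_ker ((hermLeft 2 v).comp W.subtype)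
      have h2 : LinearMap.range ((hermLeft 2 v).comp W.subtype) = ⊤ := by
        rw [LinearMap.range_eq_top]
        intro c
        refine ⟨c • ⟨v, hv⟩, ?_⟩
        simp [hvv]
      have h3 : finrank F (LinearMap.ker ((hermLeft 2 v).comp W.subtype)) = finrank F W' := by
        have h4 : W' = (LinearMap.ker ((hermLeft 2 v).comp W.subtype)).map W.subtype := by
          ext w
          rw [hmem, Submodule.mem_map]
          constructor
          · rintro ⟨hw, hw'⟩
            exact ⟨⟨w, hw⟩, by simpa using hw', rfl⟩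
          · rintro ⟨w', hw', rfl⟩
            exact ⟨w'.2, by simpa using hw'⟩
        rw [h4]
        exact (LinearEquiv.finrank_eq
          (Submodule.equivMapOfInjective W.subtype W.injective_subtype _))
      rw [h2, finrank_top, finrank_self, h3, hk] at h1
      omega
    obtain ⟨b, hb, hbe, hbb⟩ := ih W' hnd hinv hrank
    refine ⟨Fin.cons v b, ?_, ?_, ?_⟩
    · intro i
      refine Fin.cases ?_ (fun i => ?_) i
      · exact hv
      · exact ((hmem _).1 (hb i)).1
    · intro i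
      refine Fin.cases ?_ (fun i => ?_) i
      · exact hve
      · exact hbe i
    · intro i j
      refine Fin.cases ?_ (fun i => ?_) i <;> refine Fin.cases ?_ (fun j => ?_) j
      · simpa using hvv
      · rw [Fin.cons_zero, Fin.cons_succ, if_neg (Fin.succ_ne_zero j).symm]
        exact herm_eq_zero_swap hF ((hmem _).1 (hb j)).2
      · rw [Fin.cons_zero, Fin.cons_succ, if_neg (Fin.succ_ne_zero i)]
        exact ((hmem _).1 (hb i)).2
      · rw [Fin.cons_succ, Fin.cons_succ, hbb]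
        simp [Fin.succ_inj]

/-- commuting unitary matrices of order three are diagonal in an orthonormal basis -/
theorem exists_diag : ∃ P Q : Mt n F, IsU P ∧ IsU Q ∧ P * Q = 1 ∧ Q * P = 1 ∧
    ∀ M ∈ S, ∃ d, Q * M * P = diagonal d := by
  obtain ⟨b, -, hbe, hbb⟩ := exists_basis hF hU hc h3 n ⊤ (fun u _ h => herm_nondeg hF fun v => h v trivial)
    (fun _ _ _ _ => trivial) (by rw [finrank_top, finrank_fin_fun])
  obtain ⟨g, hg, hgx⟩ := exists_GU_of_orthonormal hF hbb
  refine ⟨g, (g⁻¹ : GL (Fin n) F), hg, (GU n F 2).inv_mem hg, g.mul_inv, g.inv_mul, fun M hM => ?_⟩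
  choose c hc using fun i => hbe i M hM
  refine ⟨c, ?_⟩
  have e : M * (g : Mt n F) = (g : Mt n F) * diagonal c := ext_mv fun v => by
    rw [← mulVec_mulVec, ← mulVec_mulVec, hgx, hgx, mulVec_sum]
    refine Finset.sum_congr rfl fun i _ => ?_
    rw [mulVec_smul, hc, mulVec_diagonal, smul_smul, mul_comm]
  rw [Matrix.mul_assoc, e, ← Matrix.mul_assoc, g.inv_mul, Matrix.one_mul]

end Diag

end Cfsg.Agent.TwoF.XL.Un2
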