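import Cfsg.Agent.TwoF.XL.Un2.Lin
import Cfsg.Agent.TwoF.XL.Un2.Mat

/-!
# TwoF XL-Un2: groups above `SU n 2` and the lift of the unipotent radical (helper35)

`Cov μ`: `μ : W → GU n 2` covers `SU n 2`, its kernel has order prime to three and centralises the preimage of `SU`.
-/

set_option autoImplicit false
set_option linter.unusedSectionVars false

namespace Cfsg.Agent.TwoF.XL.Un2

open Module Matrix Cfsg.Agent.LieClassical.HermBasic Cfsg.Agent.LieClassical.HermSiegel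
open scoped commutatorElement

variable {F : Type} [Field F] [Fintype F] {n : ℕ} {W : Type} [Group W] {μ : W →* Mt n F}

/-- the standing hypotheses on `μ` -/
structure Cov (μ : W →* Mt n F) : Prop where
  card : Fintype.card F = 2 ^ 2
  uni : ∀ w, IsU (μ w)
  lift : ∀ M, IsU M → M.det = 1 → ∃ w, μ w = M
  cent : ∀ z w, μ z = 1 → (μ w).det = 1 → z * w = w * z
  cop : ∀ z, μ z = 1 → z ^ 3 = 1 → z = 1

theorem mu_div {a b : W} {N : Mt n F} (h : μ a = N * μ b) : μ (a * b⁻¹) = N := by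
  rw [map_mul, h, mul_assoc, ← map_mul, mul_inv_cancel, map_one, mul_one]

theorem mu_conj {a b : W} {N : Mt n F} (h : μ a * μ b = N * μ a) : μ (a * b * a⁻¹) = N :=
  mu_div (by rw [map_mul, h])

theorem det_mu_mul (a b : W) : (μ (a * b)).det = (μ a).det * (μ b).det := by rw [map_mul, det_mul]

theorem det_mu_inv {a : W} (h : (μ a).det = 1) : (μ a⁻¹).det = 1 := by
  have := det_mu_mul (μ := μ) a a⁻¹
  rwa [mul_inv_cancel, map_one, det_one, h, one_mul, eq_comm] at this

theorem det_mu_conj (a b : W) : (μ (a * b * a⁻¹)).det = (μ b).det := by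
  rw [det_mu_mul, mul_comm, ← det_mu_mul, ← mul_assoc, inv_mul_cancel, one_mul]

theorem det_mu_comm (a b : W) : (μ ⁅a, b⁆).det = 1 := by
  rw [commutatorElement_def, det_mu_mul, det_mu_conj, ← det_mu_mul, mul_inv_cancel, map_one, det_one]

namespace Cov

variable (C : Cov μ)
include C

theorem eq_one_of_pow {z : W} (hz : μ z = 1) {e : ℕ} (h : z ^ 3 ^ e = 1) : z = 1 := by
  induction e with
  | zero => simpa using h
  | succ e ih => exact ih (C.cop _ (by rw [map_pow, hz, one_pow]) (by rw [← pow_mul, ← pow_succ, h]))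

theorem eq_one_of_mem {P : Subgroup W} (hP : IsPGroup 3 P) {a : W} (ha : a ∈ P) (h : μ a = 1) : a = 1 := by
  obtain ⟨e, he⟩ := hP ⟨a, ha⟩
  exact C.eq_one_of_pow h (congrArg Subtype.val he)

theorem inj {P : Subgroup W} (hP : IsPGroup 3 P) {a b : W} (ha : a ∈ P) (hb : b ∈ P) (h : μ a = μ b) : a = b :=
  mul_inv_eq_one.1 (C.eq_one_of_mem hP (mul_mem ha (inv_mem hb)) (mu_div (by rw [h, one_mul])))

theorem conj_congr {a a' b : W} (h : μ a = μ a') (hb : (μ b).det = 1) : a * b * a⁻¹ = a' * b * a'⁻¹ := by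
  have h1 := C.cent (a' * a⁻¹) (a * b * a⁻¹) (mu_div (by rw [h, one_mul])) (by rw [det_mu_conj, hb])
  calc a * b * a⁻¹ = (a * b * a⁻¹ * (a' * a⁻¹)) * (a' * a⁻¹)⁻¹ := by group
    _ = a' * b * a'⁻¹ := by rw [← h1]; group

theorem comm_congr {a a' b b' : W} (h : μ a = μ a') (h' : μ b = μ b') (ha : (μ a).det = 1) (hb : (μ b).det = 1) :
    ⁅a, b⁆ = ⁅a', b'⁆ := by
  have h1 := C.conj_congr h hb
  have h2 := C.conj_congr h' (det_mu_inv (h ▸ ha : (μ a').det = 1))
  calc ⁅a, b⁆ = a' * (b * a'⁻¹ * b⁻¹) := by rw [commutatorElement_def, h1]; group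
    _ = ⁅a', b'⁆ := by rw [h2, commutatorElement_def]; group

theorem comm_of_eq {a a' b : W} (h : μ a = μ a') (hb : (μ b).det = 1) (hc : a * b = b * a) : a' * b = b * a' := by
  rw [← mul_inv_eq_iff_eq_mul, ← C.conj_congr h hb, hc, mul_inv_cancel_right]

theorem comm_of_three {a b : W} (h : μ a * μ b = μ b * μ a) (h3 : μ a ^ 3 = 1) (ha : (μ a).det = 1)
    (hb : (μ b).det = 1) : a * b = b * a := by
  have h1 : μ (a * b * a⁻¹ * b⁻¹) = 1 := mu_div (by rw [mu_conj h, one_mul])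
  set c := a * b * a⁻¹ * b⁻¹ with hc
  have h2 : a * b = c * b * a := by rw [hc]; group
  have h4 : a * c = c * a := (C.cent c a h1 ha).symm
  have h5 := C.cent (a ^ 3) b (by rw [map_pow, h3]) hb
  have h6 : a ^ 3 * b = c ^ 3 * (b * a ^ 3) := by
    have e1 : ∀ x, a * (b * x) = c * (b * (a * x)) := fun x => by rw [← mul_assoc, h2]; simp only [mul_assoc]
    have e2 : ∀ x, a * (c * x) = c * (a * x) := fun x => by rw [← mul_assoc, h4, mul_assoc]
    calc a ^ 3 * b = a * (a * (a * (b * 1))) := by simp only [pow_succ, pow_zero, one_mul, mul_assoc, mul_one]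
      _ = c * (c * (c * (b * (a * (a * (a * 1)))))) := by rw [e1, e2, e2, e1, e2, e1]
      _ = c ^ 3 * (b * a ^ 3) := by simp only [pow_succ, pow_zero, one_mul, mul_assoc, mul_one]
  rw [h5] at h6
  rw [h2, C.cop c h1 (by simpa using h6.symm), one_mul]

variable [Finite W]

theorem not_dvd : ¬ 3 ∣ Nat.card μ.ker := fun h => by
  haveI : Fact (Nat.Prime 3) := ⟨Nat.prime_three⟩
  obtain ⟨z, hz⟩ := exists_prime_orderOf_dvd_card' 3 h
  have h1 : z = 1 := Subtype.ext (C.cop z z.2 (by rw [← Subgroup.coe_pow, ← hz, pow_orderOf_eq_one]; rfl))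
  rw [h1, orderOf_one] at hz
  omega

/-- a lift that commutes with a `3`-group -/
theorem exists_fixed {P : Subgroup W} (hP : IsPGroup 3 P) {M : Mt n F} (hM : IsU M) (hd : M.det = 1)
    (h : ∀ b ∈ P, μ b * M = M * μ b) : ∃ y, μ y = M ∧ ∀ b ∈ P, b * y = y * b := by
  haveI : Fact (Nat.Prime 3) := ⟨Nat.prime_three⟩
  obtain ⟨y0, rfl⟩ := C.lift M hM hd
  letI : MulAction P {y // μ y = μ y0} :=
    { smul := fun b y => ⟨b * y * (b : W)⁻¹, mu_conj (by rw [y.2, h b b.2])⟩
      one_smul := fun y => Subtype.ext (show ((1 : P) : W) * y * ((1 : P) : W)⁻¹ = y by simp)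
      mul_smul := fun a b y => Subtype.ext (show ((a * b : P) : W) * y * ((a * b : P) : W)⁻¹ =
        a * (b * y * (b : W)⁻¹) * (a : W)⁻¹ by rw [Subgroup.coe_mul]; group) }
  have e : {y // μ y = μ y0} ≃ μ.ker :=
    { toFun := fun y => ⟨y * y0⁻¹, mu_div (by rw [y.2, one_mul])⟩
      invFun := fun z => ⟨z * y0, by rw [map_mul, MonoidHom.mem_ker.1 z.2, one_mul]⟩
      left_inv := fun y => Subtype.ext (inv_mul_cancel_right _ _)
      right_inv := fun z => Subtype.ext (mul_inv_cancel_right _ _) }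
  obtain ⟨y, hy⟩ := hP.nonempty_fixed_point_of_prime_not_dvd_card {y // μ y = μ y0}
    (by rw [Nat.card_congr e]; exact C.not_dvd)
  exact ⟨y, y.2, fun b hb => mul_inv_eq_iff_eq_mul.1 (congrArg Subtype.val (hy ⟨b, hb⟩))⟩

/-- the power of order three of an element whose image has order three -/
theorem exists_three (y : W) (hy : μ y ^ 3 = 1) : ∃ j : ℕ, μ (y ^ j) = μ y ∧ (y ^ j) ^ 3 = 1 := by
  obtain ⟨j, e, h1, h2⟩ := exists_part μ Nat.prime_three y hy
  refine ⟨j, h1, C.eq_one_of_pow (e := e) (by rw [map_pow, h1, hy]) ?_⟩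
  rw [← pow_mul, mul_comm, pow_mul, h2, one_pow]

omit [Finite W] in
/-- change of the frame -/
theorem exists_frame (S : Set W) (hc : ∀ a ∈ S, ∀ b ∈ S, μ a * μ b = μ b * μ a) (h3 : ∀ a ∈ S, μ a ^ 3 = 1) :
    ∃ μ' : W →* Mt n F, Cov μ' ∧ (∀ w (c : F), μ' w = c • (1 : Mt n F) ↔ μ w = c • (1 : Mt n F)) ∧
      (∀ w, (μ' w).det = (μ w).det) ∧ ∀ a ∈ S, ∃ d, μ' a = diagonal d := by
  obtain ⟨P, Q, hP, hQ, hPQ, hQP, H⟩ := exists_diag C.card (S := μ '' S)
    (by rintro _ ⟨a, -, rfl⟩; exact C.uni a) (by rintro _ ⟨a, ha, rfl⟩ _ ⟨b, hb, rfl⟩; exact hc a ha b hb)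
    (by rintro _ ⟨a, ha, rfl⟩; exact h3 a ha)
  have hdet : ∀ M : Mt n F, (Q * M * P).det = M.det := fun M => by
    rw [det_mul_comm, ← Matrix.mul_assoc, hPQ, Matrix.one_mul]
  have hback : ∀ M : Mt n F, P * (Q * M * P) * Q = M := fun M => by
    rw [← Matrix.mul_assoc, ← Matrix.mul_assoc, hPQ, Matrix.one_mul, Matrix.mul_assoc, hPQ, Matrix.mul_one]
  have hsc : ∀ (M : Mt n F) (c : F), Q * M * P = c • (1 : Mt n F) ↔ M = c • (1 : Mt n F) := fun M c =>
    ⟨fun e => by rw [← hback M, e, Matrix.mul_smul, Matrix.mul_one, Matrix.smul_mul, hPQ],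
      fun e => by rw [e, Matrix.mul_smul, Matrix.mul_one, Matrix.smul_mul, hQP]⟩
  let μ' : W →* Mt n F :=
    { toFun := fun w => Q * μ w * P
      map_one' := by rw [map_one, Matrix.mul_one, hQP]
      map_mul' := fun a b => by
        rw [map_mul]
        calc Q * (μ a * μ b) * P = Q * μ a * (P * Q) * μ b * P := by rw [hPQ]; simp only [Matrix.mul_assoc, Matrix.one_mul]
          _ = _ := by simp only [Matrix.mul_assoc] }
  have h1 : ∀ z, μ' z = 1 → μ z = 1 := fun z hz => by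
    simpa only [one_smul] using (hsc (μ z) 1).1 (by rw [one_smul]; exact hz)
  refine ⟨μ', ⟨C.card, fun w => (hQ.mul (C.uni w)).mul hP, fun M hM hd => ?_,
    fun z w hz hw => C.cent z w (h1 z hz) ((hdet _).symm.trans hw), fun z hz => C.cop z (h1 z hz)⟩,
    fun w c => hsc _ c, fun w => hdet _, fun a ha => H _ ⟨a, ha, rfl⟩⟩
  obtain ⟨w, hw⟩ := C.lift (P * M * Q) ((hP.mul hM).mul hQ)
    (by rw [det_mul_comm, ← Matrix.mul_assoc, hQP, Matrix.one_mul, hd])
  refine ⟨w, ?_⟩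
  show Q * μ w * P = M
  rw [hw, ← Matrix.mul_assoc, ← Matrix.mul_assoc, hQP, Matrix.one_mul, Matrix.mul_assoc, hQP, Matrix.mul_one]

/-- a `3`-group of diagonal matrices -/
theorem card_le {T : Subgroup W} (hT : IsPGroup 3 T) (hd : ∀ a ∈ T, ∃ d, μ a = diagonal d) : Nat.card T ≤ 3 ^ n := by
  choose d hd using hd
  have h0 : ∀ a ha i, d a ha i ≠ 0 := fun a ha => IsU.diag_ne C.card (hd a ha ▸ C.uni a)
  have := Nat.card_le_card_of_injective (fun (a : T) (i : Fin n) => Units.mk0 _ (h0 a a.2 i)) fun a b e =>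
    Subtype.ext (C.inj hT a.2 b.2 (by
      rw [hd a a.2, hd b b.2]
      exact congrArg diagonal (funext fun i => congrArg Units.val (congrFun e i))))
  rwa [Nat.card_fun, card_units C.card, Nat.card_fin] at this

/-- a `3`-group of scalar matrices -/
theorem exists_not_sc (i0 : Fin n) {T : Subgroup W} (hT : IsPGroup 3 T) (h : 3 < Nat.card T) : ∃ a ∈ T, ¬ Sc (μ a) := by
  by_contra! H
  choose c hc using H
  have h0 : ∀ a ha, c a ha ≠ 0 := fun a ha e => (C.uni a).det_ne C.card (by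
    haveI : Nonempty (Fin n) := ⟨i0⟩
    rw [hc a ha, e, zero_smul, det_zero])
  have := Nat.card_le_card_of_injective (fun a : T => Units.mk0 _ (h0 a a.2)) fun a b e =>
    Subtype.ext (C.inj hT a.2 b.2 (by rw [hc a a.2, hc b b.2, show c a a.2 = c b b.2 from congrArg Units.val e]))
  rw [card_units C.card] at this
  omega

end Cov

end Cfsg.Agent.TwoF.XL.Un2
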