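import Cfsg.Agent.TwoF.XL.Un2.Big
import Cfsg.Agent.TwoF.Gen.BLay

/-!
# TwoF XL-Un2: the case `n = 5` (helper35)
-/

set_option autoImplicit false
set_option linter.unusedSectionVars false

namespace Cfsg.Agent.TwoF.XL.Un2

open Module Matrix Cfsg.Agent.LieClassical.HermBasic Cfsg.Agent.LieClassical.HermSiegel Gen
open scoped commutatorElement

variable {F : Type} [Field F] [Fintype F] {W : Type} [Group W] [Finite W] {μ : W →* Mt 5 F}

theorem modEq_of_fpf {E X : Subgroup W} {s : ℕ} [Fact s.Prime] (hX : IsPGroup s X)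
    (hi : ∀ h ∈ X, ∀ e ∈ E, h * e * h⁻¹ ∈ E) (hf : ∀ e ∈ E, (∀ h ∈ X, h * e * h⁻¹ = e) → e = 1) :
    Nat.card E ≡ 1 [MOD s] := by
  let _ : MulAction X E :=
    { smul := fun h e => ⟨h * e * h⁻¹, hi h h.2 e e.2⟩
      one_smul := fun e => Subtype.ext (by show ((1 : X) : W) * e * ((1 : X) : W)⁻¹ = e; simp)
      mul_smul := fun g h e => Subtype.ext (by
        show ((g : W) * h) * e * ((g : W) * h)⁻¹ = g * (h * e * (h : W)⁻¹) * (g : W)⁻¹
        group) }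
  have h1 := hX.card_modEq_card_fixedPoints E
  have h2 : Nat.card (MulAction.fixedPoints X E) = 1 := by
    rw [Nat.card_eq_one_iff_exists]
    refine ⟨⟨1, fun h => Subtype.ext (by show (h : W) * 1 * (h : W)⁻¹ = 1; simp)⟩, fun e => Subtype.ext (Subtype.ext ?_)⟩
    exact hf _ e.1.2 fun h hh => congrArg Subtype.val (e.2 ⟨h, hh⟩)
  rwa [h2] at h1

theorem isPGroup_zpowers {y : W} {s e : ℕ} (h : y ^ s ^ e = 1) : IsPGroup s (Subgroup.zpowers y) := by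
  rintro ⟨_, j, rfl⟩
  refine ⟨e, Subtype.ext ?_⟩
  show (y ^ j) ^ s ^ e = 1
  rw [← zpow_natCast, ← _root_.zpow_mul, mul_comm, _root_.zpow_mul, zpow_natCast, h, _root_.one_zpow]

namespace Cov

variable (C : Cov μ)
include C

/-- the lift of the diagonal subgroup of `SU` -/
def tor : Subgroup W where
  carrier := {w | (∃ d, μ w = diagonal d) ∧ (μ w).det = 1 ∧ w ^ 3 = 1}
  one_mem' := ⟨⟨fun _ => 1, by rw [map_one, diagonal_one]⟩, by rw [map_one, det_one], one_pow _⟩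
  mul_mem' := by
    rintro a b ⟨⟨d, hd⟩, a1, a2⟩ ⟨⟨e, he⟩, b1, b2⟩
    refine ⟨⟨_, by rw [map_mul, hd, he, diagonal_mul_diagonal]⟩, by rw [det_mu_mul, a1, b1, mul_one], ?_⟩
    have : Commute a b := C.comm_of_three (by rw [hd, he]; exact (commute_diagonal d e).eq)
      (by rw [← map_pow, a2, map_one]) a1 b1
    rw [this.mul_pow, a2, b2, mul_one]
  inv_mem' := by
    rintro a ⟨⟨d, hd⟩, a1, a2⟩
    have e : a⁻¹ = a * a := by rw [inv_eq_iff_mul_eq_one, ← a2, _root_.pow_three]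
    exact ⟨⟨_, by rw [e, map_mul, hd, diagonal_mul_diagonal]⟩, det_mu_inv a1, by rw [inv_pow, a2, inv_one]⟩

theorem elemAb_tor : IsElementaryAbelian 3 C.tor :=
  elemAb_of (by
    rintro a ⟨⟨d, hd⟩, a1, a2⟩ b ⟨⟨e, he⟩, b1, -⟩
    exact C.comm_of_three (by rw [hd, he]; exact (commute_diagonal d e).eq) (by rw [← map_pow, a2, map_one]) a1 b1)
    fun a ha => ha.2.2

theorem exists_tor {d : Fin 5 → F} (hd : (diagonal d : Mt 5 F).det = 1) : ∃ w ∈ C.tor, μ w = diagonal d := by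
  have h0 : ∀ i, d i ≠ 0 := fun i => by
    rw [det_diagonal] at hd
    exact Finset.prod_ne_zero_iff.1 (hd ▸ one_ne_zero) i (Finset.mem_univ i)
  obtain ⟨y, hy⟩ := C.lift _ (isU_diag C.card h0) hd
  obtain ⟨j, h1, h2⟩ := C.exists_three y (hy ▸ diag_pow_three C.card h0)
  exact ⟨y ^ j, ⟨⟨d, h1.trans hy⟩, by rw [h1, hy, hd], h2⟩, h1.trans hy⟩

theorem conj_tor {p : W} {σ : Equiv.Perm (Fin 5)} (hp : μ p = pm F σ) {w : W} (hw : w ∈ C.tor) :
    p * w * p⁻¹ ∈ C.tor := by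
  obtain ⟨⟨d, hd⟩, h1, h2⟩ := hw
  exact ⟨⟨_, mu_conj (by rw [hp, hd, pm_diag])⟩, by rw [det_mu_conj, h1], by rw [conj_pow, h2, mul_one, mul_inv_cancel]⟩

theorem norm_tor {p : W} {σ : Equiv.Perm (Fin 5)} (hp : μ p = pm F σ) : p ∈ Subgroup.normalizer (C.tor : Set W) :=
  Subgroup.mem_normalizer_fintype fun _ hw => C.conj_tor hp hw

theorem card_inv {y : W} {e : ℕ} (hy : μ y = pm F (finRotate 5)) (h5 : y ^ 5 ^ e = 1) {E : Subgroup W} (hE : E ≤ C.tor)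
    (h0 : E ≠ ⊥) (hi : ∀ h ∈ Subgroup.zpowers y, ∀ a ∈ E, h * a * h⁻¹ ∈ E) : Nat.card E = 3 ^ 4 := by
  haveI : Fact (Nat.Prime 5) := ⟨by norm_num⟩
  haveI : Fact (Nat.Prime 3) := ⟨Nat.prime_three⟩
  have hp := (elemAb_isPGroup C.elemAb_tor).to_le hE
  have h1 := modEq_of_fpf (isPGroup_zpowers h5) hi fun a ha h => by
    obtain ⟨⟨d, hd⟩, a1, -⟩ := hE ha
    have e1 : μ (y * a * y⁻¹) = _ := mu_conj (by rw [hy, hd, pm_diag])
    rw [h y (Subgroup.mem_zpowers y), hd] at e1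
    have e2 := congrFun (diagonal_injective e1)
    have f1 : d 1 = d 0 := e2 1
    have f2 : d 2 = d 1 := e2 2
    have f3 : d 3 = d 2 := e2 3
    have f4 : d 4 = d 3 := e2 4
    refine C.eq_one_of_mem hp ha (C.eq_one_of_sc 0 (by decide) ⟨d 0, ?_⟩ a1)
    rw [hd, smul_one_eq_diagonal]
    congr 1
    ext i
    fin_cases i
    exacts [rfl, f1, f2.trans f1, f3.trans (f2.trans f1), f4.trans (f3.trans (f2.trans f1))]
  obtain ⟨r, hr⟩ := hp.exists_card_eq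
  have h2 := C.card_le hp fun a ha => (hE ha).1
  have h3 : r ≠ 0 := by
    rintro rfl
    exact h0 (Subgroup.card_eq_one.1 hr)
  rw [hr] at h1 h2 ⊢
  have h4 := (Nat.pow_le_pow_iff_right (by norm_num)).1 h2
  interval_cases r <;> first | rfl | exact absurd h1 (by decide) | exact absurd rfl h3

theorem tor_le {ω : F} (h : F4 ω) {E : Subgroup W}
    (hr : ∀ i : Fin 5, i ≠ 4 → ∃ r ∈ E, r ∈ C.tor ∧ μ r = diagonal (dd i 4 ω)) : C.tor ≤ E := fun w hw => by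
  obtain ⟨⟨d, hd⟩, w1, -⟩ := id hw
  have d0 := IsU.diag_ne C.card (hd ▸ C.uni w)
  have hk : ∀ i, ∃ j : ℕ, d i = ω ^ j := fun i => by
    rcases h.cases (d0 i) with e | e | e
    exacts [⟨0, by rw [e, pow_zero]⟩, ⟨1, by rw [e, pow_one]⟩, ⟨2, e⟩]
  choose j hj using hk
  obtain ⟨r0, a0, b0, c0⟩ := hr 0 (by decide)
  obtain ⟨r1, a1, b1, c1⟩ := hr 1 (by decide)
  obtain ⟨r2, a2, b2, c2⟩ := hr 2 (by decide)
  obtain ⟨r3, a3, b3, c3⟩ := hr 3 (by decide)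
  have m1 : r0 ^ j 0 * r1 ^ j 1 * r2 ^ j 2 * r3 ^ j 3 ∈ C.tor :=
    mul_mem (mul_mem (mul_mem (pow_mem b0 _) (pow_mem b1 _)) (pow_mem b2 _)) (pow_mem b3 _)
  have m2 : μ (r0 ^ j 0 * r1 ^ j 1 * r2 ^ j 2 * r3 ^ j 3) = diagonal fun i =>
      dd 0 4 ω i ^ j 0 * dd 1 4 ω i ^ j 1 * dd 2 4 ω i ^ j 2 * dd 3 4 ω i ^ j 3 := by
    simp only [map_mul, map_pow, c0, c1, c2, c3, diagonal_pow, diagonal_mul_diagonal, Pi.pow_apply]
  have m3 := m1.2.1
  rw [m2] at m3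
  set e : Fin 5 → F := fun i => dd 0 4 ω i ^ j 0 * dd 1 4 ω i ^ j 1 * dd 2 4 ω i ^ j 2 * dd 3 4 ω i ^ j 3
  have e0 : d 0 = e 0 := by simp [e, dd, hj 0]
  have e1 : d 1 = e 1 := by simp [e, dd, hj 1]
  have e2 : d 2 = e 2 := by simp [e, dd, hj 2]
  have e3 : d 3 = e 3 := by simp [e, dd, hj 3]
  have e4 : d 4 = e 4 := by
    rw [hd] at w1
    rw [det_diagonal, Fin.prod_univ_five] at w1 m3
    rw [← e0, ← e1, ← e2, ← e3] at m3
    exact mul_left_cancel₀ (mul_ne_zero (mul_ne_zero (mul_ne_zero (d0 0) (d0 1)) (d0 2)) (d0 3)) (w1.trans m3.symm)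
  rw [C.inj (elemAb_isPGroup C.elemAb_tor) hw m1 (by
    rw [hd, m2]
    congr 1
    ext i
    fin_cases i <;> assumption)]
  exact mul_mem (mul_mem (mul_mem (pow_mem a0 _) (pow_mem a1 _)) (pow_mem a2 _)) (pow_mem a3 _)

variable {V : Type*} [AddCommGroup V] [Module (ZMod 3) V] [Finite V] {ρ : Representation (ZMod 3) W V}

theorem nine_le (hc : ¬ Cub ρ C.tor) : 9 ≤ cod ρ C.tor := by
  haveI : Fact (Nat.Prime 5) := ⟨by norm_num⟩
  haveI : Fact (Nat.Prime 3) := ⟨Nat.prime_three⟩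
  obtain ⟨ω, h⟩ := exists_F4 C.card
  obtain ⟨y0, hy0⟩ := C.lift _ (isU_pm (finRotate 5)) (det_pm C.card _)
  obtain ⟨j, e, hy, h5⟩ := exists_part μ (s := 5) (by norm_num) y0
    (by rw [hy0, ← pm_pow, show finRotate 5 ^ 5 = 1 by decide, pm_one])
  rw [hy0] at hy
  set y := y0 ^ j
  obtain ⟨r0, b0, c0⟩ := C.exists_tor (det_dd C.card 0 4 h.ne_zero)
  obtain ⟨a, ha, hμa⟩ := C.exists_tor (d := fun i => if i = 4 then ω ^ 2 else ω) (by
    rw [det_diagonal, Fin.prod_univ_five]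
    simp only [if_true, show (0 : Fin 5) ≠ 4 by decide, show (1 : Fin 5) ≠ 4 by decide, show (2 : Fin 5) ≠ 4 by decide,
      show (3 : Fin 5) ≠ 4 by decide, if_false]
    linear_combination (ω ^ 3 + 1) * h.three)
  have ha1 : a ≠ 1 := by
    rintro rfl
    have := congrFun (congrFun hμa 0) 0
    rw [map_one, one_apply_eq, diagonal_apply_eq, if_neg (by decide)] at this
    exact h.ne_one this.symm
  have hX : Subgroup.zpowers y ≤ Subgroup.normalizer (C.tor : Set W) := Subgroup.zpowers_le.2 (C.norm_tor hy)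
  have hcard : Nat.card C.tor = 3 ^ 4 := C.card_inv hy h5 le_rfl (fun e => ha1 (Subgroup.mem_bot.1 (e ▸ ha)))
    fun h hh a ha => (Subgroup.mem_normalizer_iff.1 (hX hh) a).1 ha
  refine layers_of_order (k := ZMod 3) (n := 4) (s := 5) C.elemAb_tor le_rfl hX (fun H c1 c2 c3 => ?_) hc
    (by rw [Nat.card_zmod]; decide) (isPGroup_zpowers h5) fun d d1 d2 => by
      rw [Nat.card_zmod]
      interval_cases d <;> decide
  have hi : IrrOn C.tor H := fun E hE hi => or_iff_not_imp_left.2 fun h0 =>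
    Subgroup.eq_of_le_of_card_ge hE (by rw [hcard, C.card_inv hy h5 hE h0 fun h hh => hi h (c1 hh)])
  refine ⟨noLin_of_irr c2 hi (by rw [Nat.card_zmod, hcard]; norm_num),
    oneForm_of_irr c2 hi (X := H ⊓ Subgroup.centralizer {a}) inf_le_left ha ha1
      (fun x hx => (Subgroup.mem_centralizer_singleton_iff.1 hx.2)) b0 ?_⟩
  set E := ⁅H ⊓ Subgroup.centralizer {a}, C.tor⁆ ⊔ Subgroup.zpowers r0
  have step : ∀ (τ : Equiv.Perm (Fin 5)) (s t : Fin 5), (τ * finRotate 5 * τ⁻¹ * (finRotate 5)⁻¹) 4 = 4 →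
      (τ * finRotate 5 * τ⁻¹ * (finRotate 5)⁻¹) s = t → (∃ r ∈ E, r ∈ C.tor ∧ μ r = diagonal (dd s 4 ω)) →
      ∃ r ∈ E, r ∈ C.tor ∧ μ r = diagonal (dd t 4 ω) := by
    rintro τ s t h4 hst ⟨r, r1, r2, r3⟩
    obtain ⟨p, hp⟩ := C.lift _ (isU_pm τ) (det_pm C.card _)
    have hyH : y ∈ H := c1 (Subgroup.mem_zpowers y)
    have hx : μ (p * y * p⁻¹ * y⁻¹) = pm F (τ * finRotate 5 * τ⁻¹ * (finRotate 5)⁻¹) := mu_div (by
      rw [hy, ← pm_mul, inv_mul_cancel_right]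
      exact mu_conj (by rw [hp, hy, ← pm_mul, ← pm_mul, inv_mul_cancel_right]))
    set σ := τ * finRotate 5 * τ⁻¹ * (finRotate 5)⁻¹
    set x := p * y * p⁻¹ * y⁻¹
    have hxH : x ∈ H ⊓ Subgroup.centralizer {a} := ⟨H.mul_mem (c3 p (C.norm_tor hp) y hyH) (H.inv_mem hyH),
      Subgroup.mem_centralizer_singleton_iff.2 (C.comm_of_three (by
        rw [hx, hμa, pm_diag]
        congr 2
        ext i
        simp only [Equiv.Perm.inv_eq_iff_eq, h4]) (by rw [← map_pow, ha.2.2, map_one]) ha.2.1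
        (hx ▸ det_pm C.card _)).symm⟩
    refine ⟨x * r * x⁻¹, ?_, C.conj_tor hx r2, mu_conj (by rw [hx, r3, pm_diag, dd_perm, hst, h4])⟩
    rw [show x * r * x⁻¹ = ⁅x, r⁆ * r by rw [commutatorElement_def, inv_mul_cancel_right]]
    exact mul_mem (Subgroup.mem_sup_left (Subgroup.commutator_mem_commutator hxH r2)) r1
  have g0 : ∃ r ∈ E, r ∈ C.tor ∧ μ r = diagonal (dd 0 4 ω) :=
    ⟨r0, Subgroup.mem_sup_right (Subgroup.mem_zpowers r0), b0, c0⟩
  have g1 := step (Equiv.swap 0 1) 0 1 (by decide) (by decide) g0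
  have g2 := step (Equiv.swap 0 2) 0 2 (by decide) (by decide) g0
  have g3 := step (Equiv.swap 1 2) 2 3 (by decide) (by decide) g2
  refine C.tor_le h fun i hi => ?_
  fin_cases i
  exacts [g0, g1, g2, g3, absurd rfl hi]

theorem five {P : Subgroup W} {m : ℕ} (O : Ofd μ ρ P m) :
    ∃ B : Subgroup W, (∀ b ∈ B, (μ b).det = 1) ∧ Off 3 ρ B ∧ Cub ρ B := by
  haveI : Fact (Nat.Prime 3) := ⟨Nat.prime_three⟩
  obtain ⟨h1, h3⟩ := C.toral 0 (by decide) O
  obtain ⟨μ', C', -, hdet, hd⟩ := C.exists_frame P h1 h3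
  obtain ⟨T, hT, hm, hc⟩ := exists_sub (card_units C.card) P (fun w => (μ w).det) (fun a _ b _ => det_mu_mul a b)
    (by simp)
  have hle : T ≤ C'.tor := fun w hw => ⟨hd w (hT hw), (hdet w).trans ((hm w).1 hw).2,
    C.eq_one_of_mem O.pg (pow_mem (hT hw) 3) (by rw [map_pow, h3 w (hT hw)])⟩
  have h4 : 3 ^ m ≤ Nat.card T := by
    have := O.card
    rw [pow_succ] at this
    omega
  have hO : Off 3 ρ T := ⟨elemAb_of_le C'.elemAb_tor hle, by
    rintro rfl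
    rw [Subgroup.card_bot] at h4
    have := Nat.one_lt_pow (n := m) (a := 3) (by have := O.pos; omega) (by omega)
    omega, by
    calc 3 ^ cod ρ T ≤ 3 ^ (m * 2) := Nat.pow_le_pow_right (by norm_num) ((cod_mono hT).trans (mul_comm 2 m ▸ O.cod))
      _ ≤ _ := by rw [pow_mul]; exact Nat.pow_le_pow_left h4 2⟩
  obtain ⟨B, hB, b2, b3, -⟩ := lattice (by norm_num) C'.elemAb_tor hO hle
  refine ⟨B, fun b hb => (hdet b).symm.trans (hB hb).2.1, b2, by_contra fun hn => ?_⟩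
  obtain ⟨y0, hy0⟩ := C'.lift _ (isU_pm (finRotate 5)) (det_pm C.card _)
  obtain ⟨j, e, hy, h5⟩ := exists_part μ' (s := 5) (by norm_num) y0
    (by rw [hy0, ← pm_pow, show finRotate 5 ^ 5 = 1 by decide, pm_one])
  rw [hy0] at hy
  have hX := Subgroup.zpowers_le.2 (C'.norm_tor hy)
  have h6 := C'.card_inv hy h5 hB b2.2.1 fun h hh a ha => (Subgroup.mem_normalizer_iff.1 (b3 (hX hh)) a).1 ha
  have h7 := C'.card_inv hy h5 le_rfl (fun e => b2.2.1 (le_bot_iff.1 (e ▸ hB)))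
    fun h hh a ha => (Subgroup.mem_normalizer_iff.1 (hX hh) a).1 ha
  obtain rfl : B = C'.tor := Subgroup.eq_of_le_of_card_ge hB (by rw [h6, h7])
  have h8 := C'.nine_le hn
  have h9 := b2.2.2
  rw [h7, ← pow_mul, Nat.pow_le_pow_iff_right (by norm_num)] at h9
  omega

end Cov

end Cfsg.Agent.TwoF.XL.Un2
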