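import Cfsg.Agent.TwoF.XL.Un2.Cov

/-!
# TwoF XL-Un2: the lift of the extraspecial group `2^(1 + 2(n-2))` (helper35)

`u = e i0 + e i1`; `xx i c` are Siegel matrices attached to `u` and `c • e i`, `zz` is the transvection with centre `u`.
-/

set_option autoImplicit false
set_option linter.unusedSectionVars false

namespace Cfsg.Agent.TwoF.XL.Un2

open Module Matrix Cfsg.Agent.LieClassical.HermBasic Cfsg.Agent.LieClassical.HermSiegel Gen
open scoped commutatorElement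

variable {F : Type} [Field F] [Fintype F] {n : ℕ}

/-- the isotropic vector -/
def uu (F : Type) [Field F] (i0 i1 : Fin n) : Fin n → F := Pi.single i0 1 + Pi.single i1 1

/-- generators of the quaternion groups -/
def xx (ω : F) (i0 i1 i : Fin n) (c : F) : Mt n F := siegelMat 2 (uu F i0 i1) (Pi.single i c) ω

/-- the transvection -/
def zz (F : Type) [Field F] (i0 i1 : Fin n) : Mt n F := siegelMat 2 (uu F i0 i1) 0 1

/-- `c` at `i`, `c ^ 2` at `l` -/
def dd (i l : Fin n) (c : F) : Fin n → F := Pi.mulSingle i c * Pi.mulSingle l (c ^ 2)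

theorem dd_left {i l : Fin n} (h : i ≠ l) (c : F) : dd i l c i = c := by simp [dd, Pi.mulSingle_eq_of_ne h]

theorem dd_right {i l : Fin n} (h : i ≠ l) (c : F) : dd i l c l = c ^ 2 := by
  simp [dd, Pi.mulSingle_eq_of_ne h.symm]

theorem dd_of_ne {i l j : Fin n} (h : j ≠ i) (h' : j ≠ l) (c : F) : dd i l c j = 1 := by
  simp [dd, Pi.mulSingle_eq_of_ne h, Pi.mulSingle_eq_of_ne h']

theorem det_dd (hF : Fintype.card F = 2 ^ 2) (i l : Fin n) {c : F} (hc : c ≠ 0) :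
    (diagonal (dd i l c) : Mt n F).det = 1 := by
  rw [det_diagonal]
  simp only [dd, Pi.mul_apply, Finset.prod_mul_distrib, Finset.prod_pi_mulSingle', Finset.mem_univ, if_true]
  rw [← pow_succ', pow_three hF hc]

theorem dd_ne (hF : Fintype.card F = 2 ^ 2) (i l : Fin n) {c : F} (hc : c ≠ 0) (j : Fin n) : dd i l c j ≠ 0 := by
  have := det_dd hF i l hc
  rw [det_diagonal] at this
  exact Finset.prod_ne_zero_iff.1 (this ▸ one_ne_zero) j (Finset.mem_univ j)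

theorem dd_perm (σ : Equiv.Perm (Fin n)) (i l : Fin n) (c : F) :
    (fun j => dd i l c (σ⁻¹ j)) = dd (σ i) (σ l) c := by
  ext j
  simp only [dd, Pi.mul_apply, Pi.mulSingle_apply, Equiv.Perm.inv_eq_iff_eq]

theorem exists_idx (hn : 5 ≤ n) (a b c d : Fin n) : ∃ l, l ≠ a ∧ l ≠ b ∧ l ≠ c ∧ l ≠ d := by
  obtain ⟨l, -, hl⟩ := Finset.exists_mem_notMem_of_card_lt_card (s := {a, b, c, d}) (t := Finset.univ)
    (Finset.card_le_four.trans_lt (by rw [Finset.card_univ, Fintype.card_fin]; omega))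
  exact ⟨l, by simpa only [Finset.mem_insert, Finset.mem_singleton, not_or] using hl⟩

theorem diag_single (d : Fin n → F) (i : Fin n) (c : F) : diagonal d *ᵥ Pi.single i c = Pi.single i (d i * c) :=
  diagonal_mulVec_single d i c

section Std

variable {ω : F} (h : F4 ω) {i0 i1 : Fin n} (h01 : i0 ≠ i1)
include h h01

theorem iso_uu : hermForm n F 2 (uu F i0 i1) (uu F i0 i1) = 0 := iso_pair h.card h01 one_ne_zero

theorem isS_x {i : Fin n} (hi : i ≠ i0 ∧ i ≠ i1) {c : F} (hc : c ≠ 0) :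
    IsSiegel 2 (uu F i0 i1) (Pi.single i c) ω := by
  refine ⟨iso_uu h h01, ?_, ?_⟩
  · rw [uu, herm_pair h.card, Pi.single_eq_of_ne hi.1.symm, Pi.single_eq_of_ne hi.2.symm, zero_mul, add_zero]
  · rw [herm_single_left, Pi.single_eq_same]
    linear_combination h.om + pow_three h.card hc

theorem isU_x {i : Fin n} (hi : i ≠ i0 ∧ i ≠ i1) {c : F} (hc : c ≠ 0) : IsU (xx ω i0 i1 i c) :=
  siegelMat_herm h.card (isS_x h h01 hi hc)

theorem det_x {i : Fin n} (hi : i ≠ i0 ∧ i ≠ i1) {c : F} (hc : c ≠ 0) : (xx ω i0 i1 i c).det = 1 :=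
  siegelMat_det h.card (isS_x h h01 hi hc)

theorem det_z : (zz F i0 i1).det = 1 := siegelMat_det h.card (isS_tv h.card (iso_uu h h01))

theorem x_mul {i : Fin n} (hi : i ≠ i0 ∧ i ≠ i1) : xx ω i0 i1 i 1 * xx ω i0 i1 i ω = xx ω i0 i1 i (ω ^ 2) := by
  rw [xx, xx, xx, sm_mul h.card (isS_x h h01 hi one_ne_zero) (isS_x h h01 hi h.ne_zero), ← Pi.single_add,
    herm_single_left, Pi.single_eq_same]
  congr 2
  · linear_combination h.om - ω ^ 2 * h.two
  · ring

theorem z_mul {i : Fin n} (hi : i ≠ i0 ∧ i ≠ i1) :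
    xx ω i0 i1 i 1 * xx ω i0 i1 i ω = zz F i0 i1 * (xx ω i0 i1 i ω * xx ω i0 i1 i 1) := by
  rw [zz, xx, xx, sm_mul h.card (isS_x h h01 hi one_ne_zero) (isS_x h h01 hi h.ne_zero),
    sm_mul h.card (isS_x h h01 hi h.ne_zero) (isS_x h h01 hi one_ne_zero),
    sm_mul h.card (isS_tv h.card (iso_uu h h01)) ((isS_x h h01 hi h.ne_zero).mul h.card (isS_x h h01 hi one_ne_zero)),
    zero_add, herm_zero_right h.card, herm_single_left, herm_single_left, Pi.single_eq_same, Pi.single_eq_same,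
    add_comm (Pi.single i ω : Fin n → F)]
  congr 1
  linear_combination h.om - (1 + ω) * h.two

theorem z_comm {i : Fin n} (hi : i ≠ i0 ∧ i ≠ i1) {c : F} (hc : c ≠ 0) :
    zz F i0 i1 * xx ω i0 i1 i c = xx ω i0 i1 i c * zz F i0 i1 := by
  rw [zz, xx, sm_mul h.card (isS_tv h.card (iso_uu h h01)) (isS_x h h01 hi hc),
    sm_mul h.card (isS_x h h01 hi hc) (isS_tv h.card (iso_uu h h01)), zero_add, add_zero, herm_zero_right h.card,
    herm_zero_left, add_comm]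

theorem x_comm {i j : Fin n} (hi : i ≠ i0 ∧ i ≠ i1) (hj : j ≠ i0 ∧ j ≠ i1) (hij : i ≠ j) {c c' : F} (hc : c ≠ 0)
    (hc' : c' ≠ 0) : xx ω i0 i1 i c * xx ω i0 i1 j c' = xx ω i0 i1 j c' * xx ω i0 i1 i c := by
  rw [xx, xx, sm_mul h.card (isS_x h h01 hi hc) (isS_x h h01 hj hc'),
    sm_mul h.card (isS_x h h01 hj hc') (isS_x h h01 hi hc), herm_single_left, herm_single_left,
    Pi.single_eq_of_ne hij, Pi.single_eq_of_ne hij.symm, add_comm (Pi.single i c : Fin n → F)]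
  simp

theorem not_sc_z : ¬ Sc (zz F i0 i1) := by
  rintro ⟨c, hc⟩
  have e := congrArg (fun M : Mt n F => (M *ᵥ Pi.single i0 1) i1) hc
  simp only [zz, tv_mulVec h.card, uu, herm_pair h.card, smul_mulVec, one_mulVec, Pi.add_apply, Pi.smul_apply,
    Pi.single_eq_same, Pi.single_eq_of_ne h01.symm] at e
  simp at e

omit h01 in
theorem diag_uu {d : Fin n → F} (hd : d i1 = d i0) : diagonal d *ᵥ uu F i0 i1 = d i0 • uu F i0 i1 := by
  rw [uu, mulVec_add, diag_single, diag_single, hd, smul_add, ← Pi.single_smul, ← Pi.single_smul, smul_eq_mul]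

omit h01 in
theorem diag_x {d : Fin n → F} (h0 : ∀ j, d j ≠ 0) (hd : d i1 = d i0) (i : Fin n) {c c' : F}
    (hc : d i0 ^ 2 * (d i * c) = c') : diagonal d * xx ω i0 i1 i c = xx ω i0 i1 i c' * diagonal d := by
  rw [xx, sm_conj' h.card (isU_diag h.card h0) (h0 i0) (diag_uu h hd), diag_single, ← Pi.single_smul, smul_eq_mul, hc,
    xx]

omit h01 in
theorem diag_z {d : Fin n → F} (h0 : ∀ j, d j ≠ 0) (hd : d i1 = d i0) :
    diagonal d * zz F i0 i1 = zz F i0 i1 * diagonal d := by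
  rw [zz, sm_conj' h.card (isU_diag h.card h0) (h0 i0) (diag_uu h hd), mulVec_zero, smul_zero]

omit h h01 in
theorem pm_uu {σ : Equiv.Perm (Fin n)} (h0 : σ i0 = i0) (h1 : σ i1 = i1) : pm F σ *ᵥ uu F i0 i1 = uu F i0 i1 := by
  rw [uu, mulVec_add, pm_single, pm_single, h0, h1]

omit h h01 in
theorem pm_x {σ : Equiv.Perm (Fin n)} (h0 : σ i0 = i0) (h1 : σ i1 = i1) (i : Fin n) (c : F) :
    pm F σ * xx ω i0 i1 i c = xx ω i0 i1 (σ i) c * pm F σ := by
  rw [xx, sm_conj (isU_pm σ), pm_uu h0 h1, pm_single, xx]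

omit h h01 in
theorem pm_z {σ : Equiv.Perm (Fin n)} (h0 : σ i0 = i0) (h1 : σ i1 = i1) : pm F σ * zz F i0 i1 = zz F i0 i1 * pm F σ := by
  rw [zz, sm_conj (isU_pm σ), pm_uu h0 h1, mulVec_zero]

end Std

variable {W : Type} [Group W] {μ : W →* Mt n F}

theorem mu_comm_inv {a : W} {M : Mt n F} (h : μ a * M = M * μ a) : μ a⁻¹ * M = M * μ a⁻¹ := by
  calc μ a⁻¹ * M = μ a⁻¹ * (M * μ a) * μ a⁻¹ := by
        rw [mul_assoc, mul_assoc, ← map_mul, mul_inv_cancel, map_one, mul_one]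
    _ = M * μ a⁻¹ := by rw [← h, ← mul_assoc, ← map_mul, inv_mul_cancel, map_one, one_mul]

/-- the canonical lift of the transvection -/
structure Hz (μ : W →* Mt n F) (ω : F) (i0 i1 : Fin n) (z : W) : Prop where
  mu : μ z = zz F i0 i1
  sq : z * z = 1
  comm : ∀ i, i ≠ i0 ∧ i ≠ i1 → ∀ x y, μ x = xx ω i0 i1 i 1 → μ y = xx ω i0 i1 i ω → ⁅x, y⁆ = z

namespace Cov

variable (C : Cov μ) {ω : F} (h : F4 ω) {i0 i1 : Fin n} (h01 : i0 ≠ i1)
include C h h01

theorem comm_Q {i l : Fin n} (hi : i ≠ i0 ∧ i ≠ i1) (hl : l ≠ i0 ∧ l ≠ i1) (hil : i ≠ l) {b : W} (hb : (μ b).det = 1)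
    (h1 : diagonal (dd i l ω) * μ b = μ b * diagonal (dd i l ω)) (h2 : xx ω i0 i1 i ω * μ b = μ b * xx ω i0 i1 i ω)
    {x y : W} (hx : μ x = xx ω i0 i1 i 1) (hy : μ y = xx ω i0 i1 i ω) : x * b = b * x ∧ y * b = b * y := by
  have hd := dd_ne h.card i l h.ne_zero
  obtain ⟨t, ht⟩ := C.lift _ (isU_diag h.card hd) (det_dd h.card i l h.ne_zero)
  have ht3 : μ t ^ 3 = 1 := ht ▸ diag_pow_three h.card hd
  have htd : (μ t).det = 1 := ht ▸ det_dd h.card i l h.ne_zero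
  have e0 : dd i l ω i0 = 1 := dd_of_ne hi.1.symm hl.1.symm _
  have e1 : dd i l ω i1 = dd i l ω i0 := (dd_of_ne hi.2.symm hl.2.symm _).trans e0.symm
  have c1 : Commute t b := C.comm_of_three (by rw [ht, h1]) ht3 htd hb
  have c2 : Commute (y * t * y⁻¹) b := C.comm_of_three (by
      have : μ (y⁻¹) * μ b = μ b * μ (y⁻¹) := mu_comm_inv (hy ▸ h2)
      rw [map_mul, map_mul, mul_assoc, this, ← mul_assoc, mul_assoc (μ y), ht, h1, ← mul_assoc, hy, h2]
      simp only [mul_assoc])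
    (by rw [← map_pow, conj_pow]; exact mu_conj (by rw [map_pow, ht3, mul_one, one_mul]))
    (by rw [det_mu_conj, htd]) hb
  have c3 : Commute x b := C.comm_of_eq (a := t * (y * t * y⁻¹)⁻¹) (by
    rw [show t * (y * t * y⁻¹)⁻¹ = t * y * t⁻¹ * y⁻¹ by group, hx]
    exact mu_div (by
      rw [hy, x_mul h h01 hi]
      exact mu_conj (by rw [ht, hy]; exact diag_x h hd e1 i (by rw [e0, dd_left hil]; ring)))) hb
    (c1.mul_left c2.inv_left)
  exact ⟨c3, C.comm_of_eq (a := t * x * t⁻¹) (by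
    rw [hy]
    exact mu_conj (by rw [ht, hx]; exact diag_x h hd e1 i (by rw [e0, dd_left hil]; ring))) hb
    ((c1.mul_left c3).mul_left c1.inv_left)⟩

theorem exists_hz (hn : 5 ≤ n) : ∃ z, Hz μ ω i0 i1 z := by
  obtain ⟨i, hi0, hi1, -, -⟩ := exists_idx hn i0 i1 i0 i1
  have hi : i ≠ i0 ∧ i ≠ i1 := ⟨hi0, hi1⟩
  obtain ⟨x, hx⟩ := C.lift _ (isU_x h h01 hi one_ne_zero) (det_x h h01 hi one_ne_zero)
  obtain ⟨y, hy⟩ := C.lift _ (isU_x h h01 hi h.ne_zero) (det_x h h01 hi h.ne_zero)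
  have hxd : (μ x).det = 1 := hx ▸ det_x h h01 hi one_ne_zero
  have hyd : (μ y).det = 1 := hy ▸ det_x h h01 hi h.ne_zero
  have hz : μ ⁅x, y⁆ = zz F i0 i1 := by
    rw [show ⁅x, y⁆ = x * y * (y * x)⁻¹ by rw [commutatorElement_def]; group]
    exact mu_div (by rw [map_mul, map_mul, hx, hy, z_mul h h01 hi])
  refine ⟨⁅x, y⁆, hz, ?_, fun j hj x' y' hx' hy' => ?_⟩
  · obtain ⟨l, hl0, hl1, hli, -⟩ := exists_idx hn i0 i1 i i
    have hd := dd_ne h.card i l h.ne_zero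
    obtain ⟨t, ht⟩ := C.lift _ (isU_diag h.card hd) (det_dd h.card i l h.ne_zero)
    have e0 : dd i l ω i0 = 1 := dd_of_ne hi.1.symm hl0.symm _
    have e1 : dd i l ω i1 = dd i l ω i0 := (dd_of_ne hi.2.symm hl1.symm _).trans e0.symm
    have c1 : t * ⁅x, y⁆ = ⁅x, y⁆ * t := C.comm_of_three (by rw [ht, hz, diag_z h hd e1])
      (ht ▸ diag_pow_three h.card hd) (ht ▸ det_dd h.card i l h.ne_zero) (det_mu_comm _ _)
    have c2 : ⁅t * x * t⁻¹, t * y * t⁻¹⁆ = ⁅y, x * y⁆ := C.comm_congr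
      (by rw [hy]; exact mu_conj (by rw [ht, hx]; exact diag_x h hd e1 i (by rw [e0, dd_left hli.symm]; ring)))
      (by
        rw [map_mul μ x y, hx, hy, x_mul h h01 hi]
        exact mu_conj (by rw [ht, hy]; exact diag_x h hd e1 i (by rw [e0, dd_left hli.symm]; ring)))
      (by rw [det_mu_conj, hxd]) (by rw [det_mu_conj, hyd])
    rw [← conjugate_commutatorElement, c1, mul_inv_cancel_right] at c2
    nth_rewrite 1 [c2]
    simp only [commutatorElement_def]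
    group
  · by_cases hij : i = j
    · subst hij
      exact C.comm_congr (hx'.trans hx.symm) (hy'.trans hy.symm) (hx' ▸ det_x h h01 hi one_ne_zero)
        (hy' ▸ det_x h h01 hi h.ne_zero)
    obtain ⟨l, hl0, hl1, hli, hlj⟩ := exists_idx hn i0 i1 i j
    set σ := Equiv.swap i l * Equiv.swap i j with hσ
    have s3 : σ ^ 3 = 1 := by
      rw [← (Equiv.Perm.isThreeCycle_swap_mul_swap_same hli.symm hij hlj).orderOf]
      exact pow_orderOf_eq_one _
    have s0 : σ i0 = i0 := by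
      rw [hσ, Equiv.Perm.mul_apply, Equiv.swap_apply_of_ne_of_ne hi0.symm hj.1.symm,
        Equiv.swap_apply_of_ne_of_ne hi0.symm hl0.symm]
    have s1 : σ i1 = i1 := by
      rw [hσ, Equiv.Perm.mul_apply, Equiv.swap_apply_of_ne_of_ne hi1.symm hj.2.symm,
        Equiv.swap_apply_of_ne_of_ne hi1.symm hl1.symm]
    have si : σ i = j := by
      rw [hσ, Equiv.Perm.mul_apply, Equiv.swap_apply_left, Equiv.swap_apply_of_ne_of_ne (Ne.symm hij) hlj.symm]
    obtain ⟨p, hp⟩ := C.lift _ (isU_pm σ) (det_pm h.card σ)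
    have c1 : p * ⁅x, y⁆ = ⁅x, y⁆ * p := C.comm_of_three (by rw [hp, hz, pm_z s0 s1])
      (by rw [hp, ← pm_pow, s3, pm_one]) (hp ▸ det_pm h.card σ) (det_mu_comm _ _)
    have c2 : ⁅p * x * p⁻¹, p * y * p⁻¹⁆ = ⁅x', y'⁆ := C.comm_congr
      (by rw [hx']; exact mu_conj (by rw [hp, hx, pm_x s0 s1, si]))
      (by rw [hy']; exact mu_conj (by rw [hp, hy, pm_x s0 s1, si]))
      (by rw [det_mu_conj, hxd]) (by rw [det_mu_conj, hyd])
    rw [← c2, ← conjugate_commutatorElement, c1, mul_inv_cancel_right]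

theorem comm_z (hn : 5 ≤ n) {z : W} (H : Hz μ ω i0 i1 z) {i : Fin n} (hi : i ≠ i0 ∧ i ≠ i1) {x y : W}
    (hx : μ x = xx ω i0 i1 i 1) (hy : μ y = xx ω i0 i1 i ω) : x * z = z * x ∧ y * z = z * y := by
  obtain ⟨l, hl0, hl1, hli, -⟩ := exists_idx hn i0 i1 i i
  refine C.comm_Q h h01 hi ⟨hl0, hl1⟩ hli.symm (H.mu ▸ det_z h h01) ?_ ?_ hx hy
  · rw [H.mu, diag_z h (dd_ne h.card i l h.ne_zero)
      ((dd_of_ne hi.2.symm hl1.symm _).trans (dd_of_ne hi.1.symm hl0.symm _).symm)]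
  · rw [H.mu, z_comm h h01 hi h.ne_zero]

theorem comm_ij (hn : 5 ≤ n) {i j : Fin n} (hi : i ≠ i0 ∧ i ≠ i1) (hj : j ≠ i0 ∧ j ≠ i1) (hij : i ≠ j) {x y b : W}
    (hx : μ x = xx ω i0 i1 i 1) (hy : μ y = xx ω i0 i1 i ω) {c : F} (hc : c ≠ 0) (hb : μ b = xx ω i0 i1 j c) :
    x * b = b * x := by
  obtain ⟨l, hl0, hl1, hli, hlj⟩ := exists_idx hn i0 i1 i j
  have e0 : dd i l ω i0 = 1 := dd_of_ne hi.1.symm hl0.symm _
  refine (C.comm_Q h h01 hi ⟨hl0, hl1⟩ hli.symm (hb ▸ det_x h h01 hj hc) ?_ ?_ hx hy).1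
  · rw [hb]
    exact diag_x h (dd_ne h.card i l h.ne_zero) ((dd_of_ne hi.2.symm hl1.symm _).trans e0.symm) j
      (by rw [e0, dd_of_ne hij.symm hlj.symm]; ring)
  · rw [hb, x_comm h h01 hi hj hij h.ne_zero hc]

/-- `z` lies in the group generated by `a` and a conjugate of `a` -/
theorem key {z : W} (H : Hz μ ω i0 i1 z) {i : Fin n} (hi : i ≠ i0 ∧ i ≠ i1) {a y : W} {d : Fin n → F}
    (ha : μ a = diagonal d) (hd : d i1 = d i0) (hne : d i ≠ d i0) (hy : μ y = xx ω i0 i1 i ω) {N : Subgroup W}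
    (h1 : a ∈ N) (h2 : y * a * y⁻¹ ∈ N) : z ∈ N := by
  have aux : ∀ (a : W) (d : Fin n → F), μ a = diagonal d → d i1 = d i0 → d i = d i0 * ω → a ∈ N → y * a * y⁻¹ ∈ N →
      z ∈ N := by
    intro a d ha hd he h1 h2
    have h0 := IsU.diag_ne h.card (ha ▸ C.uni a)
    have h3 := pow_three h.card (h0 i0)
    have e1 : μ (a * y * a⁻¹ * y⁻¹) = xx ω i0 i1 i 1 := mu_div (by
      rw [hy, x_mul h h01 hi]
      exact mu_conj (by rw [ha, hy]; exact diag_x h h0 hd i (by rw [he]; linear_combination ω ^ 2 * h3)))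
    have e2 : μ (a * (a * y * a⁻¹ * y⁻¹) * a⁻¹) = xx ω i0 i1 i ω :=
      mu_conj (by rw [ha, e1]; exact diag_x h h0 hd i (by rw [he]; linear_combination ω * h3))
    have hg : a * y * a⁻¹ * y⁻¹ ∈ N := by
      rw [show a * y * a⁻¹ * y⁻¹ = a * (y * a * y⁻¹)⁻¹ by group]
      exact mul_mem h1 (inv_mem h2)
    have hg' : a * (a * y * a⁻¹ * y⁻¹) * a⁻¹ ∈ N := mul_mem (mul_mem h1 hg) (inv_mem h1)
    rw [← H.comm i hi _ _ e1 e2, commutatorElement_def]
    exact mul_mem (mul_mem (mul_mem hg hg') (inv_mem hg)) (inv_mem hg')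
  have h0 := IsU.diag_ne h.card (ha ▸ C.uni a)
  have h3 := pow_three h.card (h0 i0)
  rcases h.cases (mul_ne_zero (h0 i) (pow_ne_zero 2 (h0 i0))) with e | e | e
  · exact (hne (by linear_combination d i0 * e - d i * h3)).elim
  · exact aux a d ha hd (by linear_combination d i0 * e - d i * h3) h1 h2
  · refine aux (a * a) (fun j => d j * d j) (by rw [map_mul, ha, diagonal_mul_diagonal]) (by rw [hd]) ?_
      (mul_mem h1 h1) (by rw [show y * (a * a) * y⁻¹ = y * a * y⁻¹ * (y * a * y⁻¹) by group]; exact mul_mem h2 h2)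
    have e' : d i = d i0 * ω ^ 2 := by linear_combination d i0 * e - d i * h3
    rw [e']
    linear_combination d i0 ^ 2 * ω * h.three

end Cov

end Cfsg.Agent.TwoF.XL.Un2
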