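import Cfsg.Agent.TwoF.XL.Abs

/-!
# TwoF XL-Un2: linear algebra and counting (helper35)

Anticommuting pairs, subgroups cut out by characters of order three, prime power parts of elements.
-/

set_option autoImplicit false
set_option linter.unusedSectionVars false

namespace Cfsg.Agent.TwoF.XL.Un2

open Module

section Lin

variable {k : Type*} [Field k] {V : Type*} [AddCommGroup V] [Module k V] [FiniteDimensional k V]

theorem two_mul_le {U E E' : Submodule k V} (h : E ≤ U) (h' : E' ≤ U) (hd : E ⊓ E' = ⊥)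
    (hr : finrank k E ≤ finrank k E') : 2 * finrank k E ≤ finrank k U := by
  have h1 := Submodule.finrank_sup_add_finrank_inf_eq E E'
  have h2 : finrank k ↥(E ⊔ E') ≤ finrank k U := Submodule.finrank_mono (sup_le h h')
  rw [hd, finrank_bot] at h1
  omega

/-- **anticommuting pairs** -/
theorem anti [IsAlgClosed k] (h2 : (2 : k) ≠ 0) {ι : Type*} [DecidableEq ι] (X Y : ι → Module.End k V)
    (hX : ∀ i, Function.Injective (X i)) (hY : ∀ i, Function.Injective (Y i))
    (hXX : ∀ i j, i ≠ j → ∀ v, X i (X j v) = X j (X i v)) (hXY : ∀ i j, i ≠ j → ∀ v, X i (Y j v) = Y j (X i v))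
    (s : Finset ι) : ∀ U : Submodule k V, U ≠ ⊥ → (∀ i ∈ s, ∀ v ∈ U, X i v ∈ U) → (∀ i ∈ s, ∀ v ∈ U, Y i v ∈ U) →
      (∀ i ∈ s, ∀ v ∈ U, X i (Y i v) = -Y i (X i v)) → 2 ^ s.card ≤ finrank k U := by
  induction s using Finset.induction_on with
  | empty =>
    intro U hU _ _ _
    rw [Finset.card_empty, pow_zero]
    exact Submodule.one_le_finrank_iff.2 hU
  | insert i s hi ih =>
    intro U hU h1 h3 h4
    have hm := Finset.mem_insert_self i s
    haveI : Nontrivial U := Submodule.nontrivial_iff_ne_bot.2 hU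
    obtain ⟨l, hl⟩ := Module.End.exists_eigenvalue ((X i).restrict (h1 i hm))
    obtain ⟨v, hv⟩ := hl.exists_hasEigenvector
    have hv1 : X i v = l • (v : V) := congrArg Subtype.val hv.apply_eq_smul
    have hv0 : (v : V) ≠ 0 := fun e => hv.2 (Subtype.ext e)
    have hl0 : l ≠ 0 := by
      rintro rfl
      exact hv0 (hX i (by rw [hv1, zero_smul, map_zero]))
    set E : Submodule k V := U ⊓ (X i).eigenspace l with hE
    have hmem : ∀ w, w ∈ E ↔ w ∈ U ∧ X i w = l • w := fun w => by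
      rw [hE, Submodule.mem_inf, Module.End.mem_eigenspace_iff]
    have hne : ∀ j ∈ s, i ≠ j := fun j hj e => hi (e ▸ hj)
    have hE0 : E ≠ ⊥ := fun e => hv0 ((Submodule.eq_bot_iff _).1 e _ ((hmem _).2 ⟨v.2, hv1⟩))
    have h5 := ih E hE0
      (fun j hj w hw => (hmem _).2 ⟨h1 j (Finset.mem_insert_of_mem hj) w ((hmem _).1 hw).1, by
        rw [hXX i j (hne j hj), ((hmem _).1 hw).2, map_smul]⟩)
      (fun j hj w hw => (hmem _).2 ⟨h3 j (Finset.mem_insert_of_mem hj) w ((hmem _).1 hw).1, by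
        rw [hXY i j (hne j hj), ((hmem _).1 hw).2, map_smul]⟩)
      (fun j hj w hw => h4 j (Finset.mem_insert_of_mem hj) w ((hmem _).1 hw).1)
    have h6 : 2 * finrank k E ≤ finrank k U := by
      refine two_mul_le (E' := E.map (Y i)) inf_le_left ?_ ?_ ?_
      · rintro _ ⟨w, hw, rfl⟩
        exact h3 i hm w ((hmem _).1 hw).1
      · rw [Submodule.eq_bot_iff]
        rintro _ ⟨hw', w, hw, rfl⟩
        have h7 := ((hmem _).1 hw').2
        rw [h4 i hm w ((hmem _).1 hw).1, ((hmem _).1 hw).2, map_smul] at h7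
        have h8 : (2 * l) • Y i w = 0 := by
          rw [mul_smul, two_smul]
          nth_rewrite 1 [← h7]
          exact neg_add_cancel _
        exact (smul_eq_zero.1 h8).resolve_left (mul_ne_zero h2 hl0)
      · exact (LinearEquiv.finrank_eq (Submodule.equivMapOfInjective (Y i) (hY i) E)).le
    rw [Finset.card_insert_of_notMem hi, pow_succ]
    omega

end Lin

section Grp

variable {W : Type*} [Group W]

/-- the kernel of a character of `B` with at most three values -/
theorem exists_sub [Finite W] {F : Type*} [Field F] (hF : Nat.card Fˣ = 3) (B : Subgroup W) (f : W → F)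
    (hf : ∀ a ∈ B, ∀ b ∈ B, f (a * b) = f a * f b) (h1 : f 1 = 1) :
    ∃ B' ≤ B, (∀ w, w ∈ B' ↔ w ∈ B ∧ f w = 1) ∧ Nat.card B ≤ 3 * Nat.card B' := by
  let g : B →* F := ⟨⟨fun b => f b, h1⟩, fun a b => hf a a.2 b b.2⟩
  haveI : Finite Fˣ := Nat.finite_of_card_ne_zero (by rw [hF]; norm_num)
  refine ⟨g.toHomUnits.ker.map B.subtype, Subgroup.map_subtype_le _, fun w => ⟨?_, ?_⟩, ?_⟩
  · rintro ⟨b, hb, rfl⟩
    exact ⟨b.2, congrArg Units.val (MonoidHom.mem_ker.1 hb)⟩
  · rintro ⟨hw, h⟩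
    exact ⟨⟨w, hw⟩, MonoidHom.mem_ker.2 (Units.ext h), rfl⟩
  · rw [Subgroup.card_map_of_injective B.subtype_injective, ← g.toHomUnits.ker.card_mul_index, Subgroup.index_ker,
      mul_comm]
    refine Nat.mul_le_mul_right _ ?_
    rw [← hF]
    exact Nat.card_le_card_of_injective _ Subtype.val_injective

/-- the `s`-part of an element whose image has order dividing `s` -/
theorem exists_part [Finite W] {M : Type*} [Monoid M] (μ : W →* M) {s : ℕ} (hs : s.Prime) (y : W) (hy : μ y ^ s = 1) :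
    ∃ j e : ℕ, μ (y ^ j) = μ y ∧ (y ^ j) ^ s ^ e = 1 := by
  obtain ⟨e, m, hm, he⟩ := Nat.exists_eq_pow_mul_and_not_dvd (orderOf_pos y).ne' s hs.one_lt.ne'
  obtain ⟨j, -, hj⟩ := Nat.exists_mul_mod_eq_one_of_coprime
    ((Nat.Prime.coprime_iff_not_dvd hs).2 hm).symm hs.one_lt
  refine ⟨m * j, e, ?_, ?_⟩
  · rw [map_pow, ← Nat.div_add_mod (m * j) s, hj, pow_add, pow_mul, hy, one_pow, one_mul, pow_one]
  · rw [← pow_mul, show m * j * s ^ e = s ^ e * m * j by ring, ← he, pow_mul, pow_orderOf_eq_one, one_pow]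

end Grp

end Cfsg.Agent.TwoF.XL.Un2
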